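import Mathlib
import Cfsg.Agent.Perm.Witt
import Cfsg.Agent.GT.FixedPointFreeThompson
import Cfsg.Agent.GT.FrobeniusThm

/-!
# Four-transitive groups with Frobenius four-point stabilizer: definitions (S3404)
-/

set_option autoImplicit false

namespace Cfsg.Agent.Q4

open MulAction

variable {G Ω : Type*} [Group G] [MulAction G Ω]

/-- four distinct points -/
structure D4 (a b c d : Ω) : Prop where
  ab : a ≠ b
  ac : a ≠ c
  ad : a ≠ d
  bc : b ≠ c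
  bd : b ≠ d
  cd : c ≠ d

theorem D4.ncard {a b c d : Ω} (h : D4 a b c d) : ({a, b, c, d} : Set Ω).ncard = 4 := by
  rw [Set.ncard_insert_of_notMem (by simp [h.ab, h.ac, h.ad]),
    Set.ncard_insert_of_notMem (by simp [h.bc, h.bd]), Set.ncard_pair h.cd]

theorem exists_D4_of_ncard_eq {s : Set Ω} (hs : s.ncard = 4) :
    ∃ a b c d, D4 a b c d ∧ s = {a, b, c, d} := by
  have hf : s.Finite := Set.finite_of_ncard_ne_zero (by omega)
  obtain ⟨a, t, ha, rfl, ht⟩ := (Set.ncard_eq_succ hf (n := 3)).1 hs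
  obtain ⟨b, c, d, h1, h2, h3, rfl⟩ := Set.ncard_eq_three.1 ht
  simp only [Set.mem_insert_iff, Set.mem_singleton_iff, not_or] at ha
  exact ⟨a, b, c, d, ⟨ha.1, ha.2.1, ha.2.2, h1, h2, h3⟩, rfl⟩

theorem exists_D4_of_le {s : Set Ω} (hs : 4 ≤ s.ncard) :
    ∃ a ∈ s, ∃ b ∈ s, ∃ c ∈ s, ∃ d ∈ s, D4 a b c d := by
  obtain ⟨t, hts, ht⟩ := Set.exists_subset_card_eq hs
  obtain ⟨a, b, c, d, h, rfl⟩ := exists_D4_of_ncard_eq ht
  exact ⟨a, hts (by simp), b, hts (by simp), c, hts (by simp), d, hts (by simp), h⟩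

theorem D4.le_ncard {a b c d : Ω} (h : D4 a b c d) {s : Set Ω} (hs : s.Finite) (ha : a ∈ s)
    (hb : b ∈ s) (hc : c ∈ s) (hd : d ∈ s) : 4 ≤ s.ncard := by
  rw [← h.ncard]
  refine Set.ncard_le_ncard ?_ hs
  rintro x (rfl | rfl | rfl | rfl) <;> assumption

theorem D4.smul {a b c d : Ω} (h : D4 a b c d) (g : G) : D4 (g • a) (g • b) (g • c) (g • d) :=
  ⟨fun e => h.ab (smul_left_cancel g e), fun e => h.ac (smul_left_cancel g e),
    fun e => h.ad (smul_left_cancel g e), fun e => h.bc (smul_left_cancel g e),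
    fun e => h.bd (smul_left_cancel g e), fun e => h.cd (smul_left_cancel g e)⟩

theorem mem_fx {s : Set Ω} {g : G} : g ∈ fixingSubgroup G s ↔ ∀ x ∈ s, g • x = x :=
  mem_fixingSubgroup_iff G

theorem mem_fx4 {a b c d : Ω} {g : G} : g ∈ fixingSubgroup G ({a, b, c, d} : Set Ω) ↔
    g • a = a ∧ g • b = b ∧ g • c = c ∧ g • d = d := by
  simp [mem_fx]

/-- `g` is a 2-element -/
def IsTwo (g : G) : Prop := ∃ k : ℕ, g ^ 2 ^ k = 1

theorem IsTwo.conj {g : G} (h : IsTwo g) (u : G) : IsTwo (u * g * u⁻¹) := by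
  obtain ⟨k, hk⟩ := h
  exact ⟨k, by rw [conj_pow, hk]; simp⟩

theorem isTwo_of_sq {g : G} (h : g ^ 2 = 1) : IsTwo g := ⟨1, by simpa using h⟩

theorem isTwo_of_mem {P : Subgroup G} (hP : IsPGroup 2 P) {g : G} (hg : g ∈ P) : IsTwo g := by
  obtain ⟨k, hk⟩ := hP ⟨g, hg⟩
  exact ⟨k, congrArg Subtype.val hk⟩

/-- fixed points of a subgroup -/
def Fix (Ω : Type*) [MulAction G Ω] (U : Subgroup G) : Set Ω := {x | ∀ g ∈ U, g • x = x}

theorem mem_Fix {U : Subgroup G} {x : Ω} : x ∈ Fix Ω U ↔ ∀ g ∈ U, g • x = x := Iff.rfl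

theorem mem_Fix_zpowers {g : G} {x : Ω} : x ∈ Fix Ω (Subgroup.zpowers g) ↔ g • x = x :=
  ⟨fun h => h g (Subgroup.mem_zpowers g),
    fun h _ hu => (Subgroup.zpowers_le_of_mem (mem_stabilizer_iff.2 h)) hu⟩

theorem Fix_anti {U V : Subgroup G} (h : U ≤ V) : Fix Ω V ⊆ Fix Ω U := fun _ hx g hg =>
  hx g (h hg)

theorem le_fx_iff {U : Subgroup G} {s : Set Ω} : U ≤ fixingSubgroup G s ↔ s ⊆ Fix Ω U :=
  ⟨fun h x hx _ hg => mem_fx.1 (h hg) x hx, fun h g hg => mem_fx.2 fun _ hx => h hx g hg⟩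

theorem smul_mem_Fix {U : Subgroup G} {n : G} (hn : ∀ u ∈ U, n⁻¹ * u * n ∈ U) {x : Ω}
    (hx : x ∈ Fix Ω U) : n • x ∈ Fix Ω U := fun u hu => by
  have := hx _ (hn u hu)
  rwa [mul_smul, mul_smul, inv_smul_eq_iff] at this

theorem smul_mem_Fix_of_normalizer {U : Subgroup G} {n : G}
    (hn : n ∈ Subgroup.normalizer (U : Set G)) {x : Ω} (hx : x ∈ Fix Ω U) : n • x ∈ Fix Ω U :=
  smul_mem_Fix (fun u hu => by
    have := (Subgroup.mem_normalizer_iff.1 (Subgroup.inv_mem _ hn) u).1 hu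
    simpa using this) hx

/-- the subgroup generated by the 2-elements fixing `s` pointwise -/
def P2 (G : Type*) [Group G] [MulAction G Ω] (s : Set Ω) : Subgroup G :=
  Subgroup.closure {g | g ∈ fixingSubgroup G s ∧ IsTwo g}

theorem P2_le (s : Set Ω) : P2 G s ≤ fixingSubgroup G s :=
  (Subgroup.closure_le _).2 fun _ h => h.1

theorem mem_P2_of {s : Set Ω} {g : G} (h : ∀ x ∈ s, g • x = x) (h2 : IsTwo g) : g ∈ P2 G s :=
  Subgroup.subset_closure ⟨mem_fx.2 h, h2⟩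

theorem subset_Fix_P2 (s : Set Ω) : s ⊆ Fix Ω (P2 G s) := le_fx_iff.1 (P2_le s)

theorem P2_anti {s t : Set Ω} (h : s ⊆ t) : P2 G t ≤ P2 G s :=
  Subgroup.closure_mono fun _ hg => ⟨mem_fx.2 fun x hx => mem_fx.1 hg.1 x (h hx), hg.2⟩

theorem le_P2 {U : Subgroup G} (hU : IsPGroup 2 U) {s : Set Ω} (h : s ⊆ Fix Ω U) : U ≤ P2 G s :=
  fun g hg => mem_P2_of (fun _ hx => h hx g hg) (isTwo_of_mem hU hg)

theorem conj_mem_P2 {s t : Set Ω} {u : G} (h : ∀ y ∈ t, u⁻¹ • y ∈ s) {g : G} (hg : g ∈ P2 G s) :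
    u * g * u⁻¹ ∈ P2 G t := by
  induction hg using Subgroup.closure_induction with
  | mem x hx =>
    refine mem_P2_of (fun y hy => ?_) (hx.2.conj u)
    rw [mul_smul, mul_smul, mem_fx.1 hx.1 _ (h y hy), smul_inv_smul]
  | one => simp
  | mul x y _ _ hx hy => simpa [mul_assoc] using mul_mem hx hy
  | inv x _ hx => simpa [mul_assoc] using inv_mem hx

/-- an element mapping the finite set `s` into itself normalizes `P2 G s` -/
theorem mem_normalizer_P2 [Finite G] {s : Set Ω} (hs : s.Finite) {u : G} (h : ∀ y ∈ s, u • y ∈ s) :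
    u ∈ Subgroup.normalizer (P2 G s : Set G) :=
  GT.Tr.mem_normalizer_of_conj_mem fun _ hg => conj_mem_P2 (fun y hy =>
    Perm.zpow_smul_mem hs h u⁻¹ (inv_mem (Subgroup.mem_zpowers u)) y hy) hg

/-- `H = K ⋊ C` is a Frobenius group with kernel `K` and complement `C` -/
structure Frob (H K C : Subgroup G) : Prop where
  Kle : K ≤ H
  Cle : C ≤ H
  Kn : ∀ h ∈ H, ∀ k ∈ K, h * k * h⁻¹ ∈ K
  prod : ∀ h ∈ H, ∃ k ∈ K, ∃ c ∈ C, h = k * c
  Kne : K ≠ ⊥
  Cne : C ≠ ⊥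
  /-- elements outside the kernel centralize no nontrivial element of the kernel -/
  fpf : ∀ h ∈ H, h ∉ K → ∀ k ∈ K, h * k = k * h → k = 1
  /-- elements outside the kernel are conjugate into the complement -/
  conjC : ∀ h ∈ H, h ∉ K → ∃ k ∈ K, k * h * k⁻¹ ∈ C
  /-- the complement is malnormal -/
  mal : ∀ h ∈ H, ∀ c ∈ C, c ≠ 1 → h * c * h⁻¹ ∈ C → h ∈ C
  disj : ∀ c ∈ C, c ∈ K → c = 1
  cop : (Nat.card K).Coprime (Nat.card C)
  card : Nat.card H = Nat.card K * Nat.card C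
  nil : Group.IsNilpotent K

/-- the hypothesis of S3404 -/
structure Hy (G Ω : Type*) [Group G] [MulAction G Ω] : Prop where
  four : IsMultiplyPretransitive G Ω 4
  card : 4 ≤ Nat.card Ω
  frob : ∀ s : Set Ω, s.ncard = 4 → ∃ K C, Frob (fixingSubgroup G s) K C

/-- the 2-closed case: the kernel has even order -/
structure TC (G Ω : Type*) [Group G] [MulAction G Ω] : Prop where
  four : IsMultiplyPretransitive G Ω 4
  card : 4 ≤ Nat.card Ω
  frob : ∀ s : Set Ω, s.ncard = 4 → ∃ K C, Frob (fixingSubgroup G s) K C ∧ Even (Nat.card K)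

theorem TC.hy (h : TC G Ω) : Hy G Ω :=
  ⟨h.four, h.card, fun s hs => (h.frob s hs).imp fun _ => Exists.imp fun _ => And.left⟩

/-- pointwise form of 4-transitivity -/
theorem tr4 (h : IsMultiplyPretransitive G Ω 4) {a b c d a' b' c' d' : Ω} (h1 : D4 a b c d)
    (h2 : D4 a' b' c' d') : ∃ g : G, g • a = a' ∧ g • b = b' ∧ g • c = c' ∧ g • d = d' := by
  have i1 : Function.Injective ![a, b, c, d] := by
    have := h1.ab; have := h1.ac; have := h1.ad; have := h1.bc; have := h1.bd; have := h1.cd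
    intro i j e
    fin_cases i <;> fin_cases j <;> simp_all [eq_comm]
  have i2 : Function.Injective ![a', b', c', d'] := by
    have := h2.ab; have := h2.ac; have := h2.ad; have := h2.bc; have := h2.bd; have := h2.cd
    intro i j e
    fin_cases i <;> fin_cases j <;> simp_all [eq_comm]
  obtain ⟨g, hg⟩ := h.exists_smul_eq (⟨_, i1⟩ : Fin 4 ↪ Ω) ⟨_, i2⟩
  exact ⟨g, DFunLike.congr_fun hg 0, DFunLike.congr_fun hg 1, DFunLike.congr_fun hg 2,
    DFunLike.congr_fun hg 3⟩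

theorem four_of_tr4 (h : ∀ a b c d a' b' c' d' : Ω, D4 a b c d → D4 a' b' c' d' →
    ∃ g : G, g • a = a' ∧ g • b = b' ∧ g • c = c' ∧ g • d = d') :
    IsMultiplyPretransitive G Ω 4 := by
  refine ⟨fun x y => ?_⟩
  have k : ∀ z : Fin 4 ↪ Ω, D4 (z 0) (z 1) (z 2) (z 3) := fun z =>
    ⟨by simp, by simp, by simp, by simp, by simp, by simp⟩
  obtain ⟨g, h0, h1, h2, h3⟩ := h _ _ _ _ _ _ _ _ (k x) (k y)
  refine ⟨g, ?_⟩
  ext i
  fin_cases i
  exacts [h0, h1, h2, h3]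

/-- the permutation group induced on `F` by the elements of `N` that preserve it -/
def resG (N : Subgroup G) (F : Set Ω) : Subgroup (Equiv.Perm F) where
  carrier := {σ | ∃ n ∈ N, ∀ x : F, (σ x : Ω) = n • (x : Ω)}
  one_mem' := ⟨1, N.one_mem, fun x => by simp⟩
  mul_mem' := by
    rintro σ τ ⟨n, hn, e⟩ ⟨m, hm, e'⟩
    exact ⟨n * m, N.mul_mem hn hm, fun x => by rw [Equiv.Perm.mul_apply, e, e', mul_smul]⟩
  inv_mem' := by
    rintro σ ⟨n, hn, e⟩
    refine ⟨n⁻¹, N.inv_mem hn, fun x => ?_⟩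
    rw [eq_inv_smul_iff, ← e]
    simp

theorem mem_resG {N : Subgroup G} {F : Set Ω} {σ : Equiv.Perm F} :
    σ ∈ resG N F ↔ ∃ n ∈ N, ∀ x : F, (σ x : Ω) = n • (x : Ω) := Iff.rfl

/-- the permutation of an invariant finite set induced by a group element -/
theorem exists_res {F : Set Ω} (hF : F.Finite) {n : G} (h : ∀ x ∈ F, n • x ∈ F) :
    ∃ σ : Equiv.Perm F, ∀ x : F, (σ x : Ω) = n • (x : Ω) := by
  have h' := Perm.zpow_smul_mem hF h n⁻¹ (inv_mem (Subgroup.mem_zpowers n))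
  exact ⟨⟨fun x => ⟨n • x, h x x.2⟩, fun x => ⟨n⁻¹ • x, h' x x.2⟩,
    fun x => Subtype.ext (inv_smul_smul n (x : Ω)), fun x => Subtype.ext (smul_inv_smul n (x : Ω))⟩,
    fun _ => rfl⟩

/-- restriction to an invariant set, as a homomorphism onto `resG` -/
def resHom (N : Subgroup G) (F : Set Ω) (h : ∀ n ∈ N, ∀ x ∈ F, n • x ∈ F) : N →* Equiv.Perm F where
  toFun n := ⟨fun x => ⟨(n : G) • x, h n n.2 x x.2⟩, fun x => ⟨(n : G)⁻¹ • x, h _ (n⁻¹).2 x x.2⟩,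
    fun x => Subtype.ext (inv_smul_smul (n : G) (x : Ω)),
    fun x => Subtype.ext (smul_inv_smul (n : G) (x : Ω))⟩
  map_one' := by ext x; simp
  map_mul' a b := by ext x; simp [mul_smul]

theorem resHom_apply {N : Subgroup G} {F : Set Ω} (h : ∀ n ∈ N, ∀ x ∈ F, n • x ∈ F) (n : N)
    (x : F) : (resHom N F h n x : Ω) = (n : G) • (x : Ω) := rfl

theorem range_resHom {N : Subgroup G} {F : Set Ω} (h : ∀ n ∈ N, ∀ x ∈ F, n • x ∈ F) :
    (resHom N F h).range = resG N F := by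
  ext σ
  constructor
  · rintro ⟨n, rfl⟩
    exact ⟨n, n.2, fun _ => rfl⟩
  · rintro ⟨n, hn, e⟩
    exact ⟨⟨n, hn⟩, Equiv.ext fun x => Subtype.ext (e x).symm⟩

theorem mem_ker_resHom {N : Subgroup G} {F : Set Ω} (h : ∀ n ∈ N, ∀ x ∈ F, n • x ∈ F) {n : N} :
    n ∈ (resHom N F h).ker ↔ ∀ x ∈ F, (n : G) • x = x := by
  rw [MonoidHom.mem_ker]
  exact ⟨fun e x hx => congrArg Subtype.val (Equiv.ext_iff.1 e ⟨x, hx⟩),
    fun e => Equiv.ext fun x => Subtype.ext (e x x.2)⟩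

/-- `N` is 4-transitive on `F` -/
def Tr4 (N : Subgroup G) (F : Set Ω) : Prop :=
  ∀ a ∈ F, ∀ b ∈ F, ∀ c ∈ F, ∀ d ∈ F, ∀ a' ∈ F, ∀ b' ∈ F, ∀ c' ∈ F, ∀ d' ∈ F, D4 a b c d →
    D4 a' b' c' d' → ∃ n ∈ N, n • a = a' ∧ n • b = b' ∧ n • c = c' ∧ n • d = d'

theorem D4.of_coe {F : Set Ω} {a b c d : F} (h : D4 a b c d) : D4 (a : Ω) b c d :=
  ⟨fun e => h.ab (Subtype.ext e), fun e => h.ac (Subtype.ext e), fun e => h.ad (Subtype.ext e),
    fun e => h.bc (Subtype.ext e), fun e => h.bd (Subtype.ext e), fun e => h.cd (Subtype.ext e)⟩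

theorem Tr4.four {N : Subgroup G} {F : Set Ω} (h : Tr4 N F)
    (hinv : ∀ n ∈ N, ∀ x ∈ F, n • x ∈ F) : IsMultiplyPretransitive (resG N F) F 4 :=
  four_of_tr4 fun a b c d a' b' c' d' h1 h2 => by
    obtain ⟨n, hn, e1, e2, e3, e4⟩ :=
      h a a.2 b b.2 c c.2 d d.2 a' a'.2 b' b'.2 c' c'.2 d' d'.2 h1.of_coe h2.of_coe
    exact ⟨⟨resHom N F hinv ⟨n, hn⟩, n, hn, fun _ => rfl⟩, Subtype.ext e1, Subtype.ext e2,
      Subtype.ext e3, Subtype.ext e4⟩

end Cfsg.Agent.Q4
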