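import Mathlib
import Cfsg.Agent.Q4.Defs
import Cfsg.Agent.GT.FrobeniusComplement
import Cfsg.Agent.GT.Fitting

/-! # Frobenius API for S3404 -/

set_option autoImplicit false
set_option linter.unusedSectionVars false

namespace Cfsg.Agent.Q4

open MulAction

variable {G Ω : Type*} [Group G] [Finite G] [MulAction G Ω]

theorem frob_of_complement {H : Subgroup G} {C : Subgroup H} (hC : IsFrobeniusComplement C) :
    Frob H (hC.kernel.map H.subtype) (C.map H.subtype) := by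
  have hn := hC.kernel_normal
  have hc := hC.isComplement'_kernel
  have hprod : ∀ h : H, ∃ k ∈ hC.kernel, ∃ c ∈ C, h = k * c := fun h => by
    obtain ⟨⟨k, c⟩, e, -⟩ := hc.existsUnique h
    exact ⟨k, k.2, c, c.2, e.symm⟩
  have hconj : ∀ h : H, h ∉ hC.kernel → ∃ k ∈ hC.kernel, k * h * k⁻¹ ∈ C := fun h hh => by
    obtain ⟨-, g, hg⟩ := GT.Frob.notMem_frobeniusKernel_iff.1 hh
    obtain ⟨k, hk, c, hc, e⟩ := hprod g⁻¹
    refine ⟨k⁻¹, inv_mem hk, ?_⟩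
    have e' : k⁻¹ = c * g := by
      rw [← inv_inv g, e]; group
    have := C.mul_mem (C.mul_mem hc hg) (C.inv_mem hc)
    rw [e']; convert this using 1; group
  have hmem : ∀ {h : G} (hh : h ∈ H) {L : Subgroup H}, h ∈ L.map H.subtype ↔ (⟨h, hh⟩ : H) ∈ L :=
    fun hh _ => ⟨by rintro ⟨y, hy, rfl⟩; exact hy, fun h => ⟨_, h, rfl⟩⟩
  have cK := Nat.card_congr (hC.kernel.equivMapOfInjective H.subtype H.subtype_injective).toEquiv
  have cC := Nat.card_congr (C.equivMapOfInjective H.subtype H.subtype_injective).toEquiv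
  refine ⟨Subgroup.map_subtype_le _, Subgroup.map_subtype_le _, ?_, ?_, ?_, ?_, ?_, ?_, ?_, ?_, ?_,
    ?_, ?_⟩
  · rintro h hh _ ⟨k, hk, rfl⟩
    exact ⟨_, hn.conj_mem k hk ⟨h, hh⟩, rfl⟩
  · intro h hh
    obtain ⟨k, hk, c, hc, e⟩ := hprod ⟨h, hh⟩
    exact ⟨k, ⟨k, hk, rfl⟩, c, ⟨c, hc, rfl⟩, congrArg Subtype.val e⟩
  · rw [Ne, Subgroup.map_eq_bot_iff_of_injective _ H.subtype_injective]
    exact hC.kernel_ne_bot
  · rw [Ne, Subgroup.map_eq_bot_iff_of_injective _ H.subtype_injective]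
    exact hC.ne_bot
  · rintro h hh hK _ ⟨k, hk, rfl⟩ e
    rw [hmem hh] at hK
    obtain ⟨u, hu, hu'⟩ := hconj _ hK
    have h1 : u * ⟨h, hh⟩ * u⁻¹ ≠ 1 := fun e1 => hK (by
      have : (⟨h, hh⟩ : H) = 1 := by simpa [mul_assoc] using congrArg (fun y => u⁻¹ * y * u) e1
      rw [this]; exact one_mem _)
    have e' : (⟨h, hh⟩ : H) * k = k * ⟨h, hh⟩ := Subtype.ext e
    have h2 : u * k * u⁻¹ ∈ hC.kernel ⊓ Subgroup.centralizer {u * ⟨h, hh⟩ * u⁻¹} :=
      ⟨hn.conj_mem k hk u, Subgroup.mem_centralizer_singleton_iff.2 (by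
        calc u * k * u⁻¹ * (u * ⟨h, hh⟩ * u⁻¹) = u * (k * ⟨h, hh⟩) * u⁻¹ := by group
          _ = u * (⟨h, hh⟩ * k) * u⁻¹ := by rw [e']
          _ = _ := by group)⟩
    rw [hC.kernel_inf_centralizer _ hu' h1, Subgroup.mem_bot] at h2
    have : k = 1 := by simpa [mul_assoc] using congrArg (fun y => u⁻¹ * y * u) h2
    simp [this]
  · intro h hh hK
    rw [hmem hh] at hK
    obtain ⟨u, hu, hu'⟩ := hconj _ hK
    exact ⟨u, ⟨u, hu, rfl⟩, _, hu', rfl⟩
  · rintro h hh _ ⟨c, hc, rfl⟩ h1 ⟨d, hd, e⟩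
    rw [hmem hh]
    refine hC.mem_of_conj_mem hc (fun e1 => h1 (by simp [e1])) ?_
    have : (⟨h, hh⟩ : H) * c * (⟨h, hh⟩ : H)⁻¹ = d := Subtype.ext e.symm
    rwa [this]
  · rintro _ ⟨c, hc', rfl⟩ ⟨k, hk, e⟩
    have : k = c := Subtype.ext e
    subst this
    rw [Subgroup.disjoint_def.1 hc.disjoint hk hc']; rfl
  · rw [← cK, ← cC, hC.card_kernel_subgroup]
    exact hC.coprime_card_index.symm
  · rw [← cK, ← cC, hc.card_mul_card]
  · have := hC.kernel_isNilpotent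
    exact Group.nilpotent_of_mulEquiv (hC.kernel.equivMapOfInjective H.subtype H.subtype_injective)

omit [Finite G] in
theorem orderOf_conj' (u g : G) : orderOf (u * g * u⁻¹) = orderOf g :=
  (MulAut.conj u).orderOf_eq g

theorem Frob.orderOf_dvd_C {H K C : Subgroup G} (h : Frob H K C) {g : G} (hg : g ∈ H)
    (hK : g ∉ K) : orderOf g ∣ Nat.card C := by
  obtain ⟨k, -, hk⟩ := h.conjC g hg hK
  rw [← orderOf_conj' k g]
  exact C.orderOf_dvd_natCard hk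

theorem Frob.mem_K_of_coprime {H K C : Subgroup G} (h : Frob H K C) {g : G} (hg : g ∈ H)
    (hc : (orderOf g).Coprime (Nat.card C)) : g ∈ K := by
  by_contra hK
  have := Nat.eq_one_of_dvd_coprimes hc dvd_rfl (h.orderOf_dvd_C hg hK)
  exact hK (orderOf_eq_one_iff.1 this ▸ one_mem _)

theorem Frob.fpfC {H K C : Subgroup G} (h : Frob H K C) : GT.Frob.HasFpfAction C :=
  GT.Frob.hasFpfAction_of_fpf h.Kne
    (fun c hc => GT.Tr.mem_normalizer_of_conj_mem (h.Kn c (h.Cle hc)))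
    fun c hc h1 => (Subgroup.eq_bot_iff_forall _).2 fun k hk =>
      h.fpf c (h.Cle hc) (fun hK => h1 (h.disj c hc hK)) k hk.1
        (Subgroup.mem_centralizer_singleton_iff.1 hk.2).symm

/-- subgroups of prime order outside the kernel are conjugate -/
theorem Frob.conj_prime {H K C : Subgroup G} (h : Frob H K C) {x y : G} (hx : x ∈ H) (hxK : x ∉ K)
    (hy : y ∈ H) (hp : (orderOf x).Prime) (e : orderOf y = orderOf x) :
    ∃ u ∈ H, u * y * u⁻¹ ∈ Subgroup.zpowers x := by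
  have := Fact.mk hp
  have hyK : y ∉ K := fun hK => hp.one_lt.ne' (Nat.eq_one_of_dvd_coprimes h.cop
    (e ▸ K.orderOf_dvd_natCard hK) (h.orderOf_dvd_C hx hxK))
  obtain ⟨k, hk, hx'⟩ := h.conjC x hx hxK
  obtain ⟨l, hl, hy'⟩ := h.conjC y hy hyK
  have ox : orderOf (⟨_, hx'⟩ : C) = orderOf x := by
    rw [← Subgroup.orderOf_coe, orderOf_conj']
  have oy : orderOf (⟨_, hy'⟩ : C) = orderOf x := by
    rw [← Subgroup.orderOf_coe, orderOf_conj', e]
  have pz : ∀ z : C, orderOf z = orderOf x → IsPGroup (orderOf x) (Subgroup.zpowers z) :=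
    fun z hz => IsPGroup.of_card (n := 1) (by rw [Nat.card_zpowers, hz, pow_one])
  obtain ⟨S, hS⟩ := (pz _ ox).exists_le_sylow
  obtain ⟨T, hT⟩ := (pz _ oy).exists_le_sylow
  obtain ⟨c, hc⟩ := exists_smul_eq C T S
  have m1 : (⟨_, hx'⟩ : C) ∈ (S : Subgroup C) := hS (Subgroup.mem_zpowers _)
  have m2 : c * (⟨_, hy'⟩ : C) * c⁻¹ ∈ (S : Subgroup C) := by
    rw [← hc, Sylow.coe_subgroup_smul]
    exact Subgroup.smul_mem_pointwise_smul _ (MulAut.conj c) _ (hT (Subgroup.mem_zpowers _))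
  have e1 := (h.fpfC.subgroup (S : Subgroup C)).eq_of_card_eq_prime S.isPGroup'
    (Subgroup.zpowers ⟨_, m2⟩) (Subgroup.zpowers ⟨_, m1⟩)
    (by rw [Nat.card_zpowers, ← Subgroup.orderOf_coe, orderOf_conj', oy])
    (by rw [Nat.card_zpowers, ← Subgroup.orderOf_coe, ox])
  obtain ⟨n, hn⟩ := Subgroup.mem_zpowers_iff.1 (e1 ▸ Subgroup.mem_zpowers (⟨_, m2⟩ : S))
  have hn' : (k * x * k⁻¹) ^ n = c * (l * y * l⁻¹) * (c : G)⁻¹ :=
    congrArg (fun z : S => ((z : C) : G)) hn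
  refine ⟨k⁻¹ * c * l, H.mul_mem (H.mul_mem (H.inv_mem (h.Kle hk)) (h.Cle c.2)) (h.Kle hl), n, ?_⟩
  rw [conj_zpow] at hn'
  calc x ^ n = k⁻¹ * (k * x ^ n * k⁻¹) * k := by group
    _ = _ := by rw [hn']; group

theorem Frob.odd_C {H K C : Subgroup G} (h : Frob H K C) (he : Even (Nat.card K)) :
    Odd (Nat.card C) :=
  (Nat.coprime_two_left).1 (Nat.Coprime.coprime_dvd_left he.two_dvd h.cop)

omit [Finite G] in
theorem IsTwo.coprime {g : G} (h : IsTwo g) {m : ℕ} (hm : Odd m) : (orderOf g).Coprime m := by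
  obtain ⟨k, hk⟩ := h
  exact Nat.Coprime.coprime_dvd_left (orderOf_dvd_of_pow_eq_one hk)
    (Nat.Coprime.pow_left _ (Nat.coprime_two_left.2 hm))

theorem Frob.two_mem_K {H K C : Subgroup G} (h : Frob H K C) (he : Even (Nat.card K)) {g : G}
    (hg : g ∈ H) (h2 : IsTwo g) : g ∈ K :=
  h.mem_K_of_coprime hg (h2.coprime (h.odd_C he))

/-- elements of coprime orders of the kernel commute -/
theorem Frob.comm_of_coprime {H K C : Subgroup G} (h : Frob H K C) {a b : G} (ha : a ∈ K)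
    (hb : b ∈ K) (hc : (orderOf a).Coprime (orderOf b)) : a * b = b * a :=
  have := h.nil
  GT.commute_of_coprime_of_isNilpotent ha hb hc

theorem Frob.exists_syl {H K C : Subgroup G} (h : Frob H K C) (he : Even (Nat.card K)) :
    ∃ P : Subgroup G, IsPGroup 2 P ∧ ∀ g, g ∈ P ↔ g ∈ H ∧ IsTwo g := by
  have := h.nil
  obtain ⟨S⟩ : Nonempty (Sylow 2 K) := inferInstance
  have hS : (S : Subgroup K).Normal := inferInstance
  refine ⟨(S : Subgroup K).map K.subtype, S.isPGroup'.map _, fun g => ⟨fun hg =>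
    ⟨h.Kle (Subgroup.map_subtype_le _ hg), isTwo_of_mem (S.isPGroup'.map _) hg⟩, fun hg => ?_⟩⟩
  have hK := h.two_mem_K he hg.1 hg.2
  obtain ⟨k, hk⟩ := hg.2
  obtain ⟨T, hT⟩ := (Perm.isPGroup_zpowers_of_pow (g := (⟨g, hK⟩ : K)) (p := 2) (k := k)
    (Subtype.ext hk)).exists_le_sylow
  have := Sylow.unique_of_normal S hS
  rw [Subsingleton.elim T S] at hT
  exact ⟨_, hT (Subgroup.mem_zpowers _), rfl⟩

theorem Frob.exists_four {H K C : Subgroup G} (h : Frob H K C) (he : Even (Nat.card K)) :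
    ∃ u ∈ H, ∃ v ∈ H, u ^ 2 = 1 ∧ v ^ 2 = 1 ∧ u * v = v * u ∧ u ≠ 1 ∧ v ≠ 1 ∧ u ≠ v := by
  obtain ⟨P, hP, hm⟩ := h.exists_syl he
  obtain ⟨t, ht⟩ := exists_prime_orderOf_dvd_card' (G := K) 2 he.two_dvd
  have t1 : (t : G) ≠ 1 := fun e => by
    rw [show t = 1 from Subtype.ext e, orderOf_one] at ht; omega
  have htP : (t : G) ∈ P := (hm _).2 ⟨h.Kle t.2, isTwo_of_sq (by
    rw [← ht, ← Subgroup.orderOf_coe, pow_orderOf_eq_one])⟩
  have : Nontrivial P := ⟨⟨⟨_, htP⟩, 1, fun e => t1 (congrArg Subtype.val e)⟩⟩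
  have := hP.center_nontrivial
  obtain ⟨n, hn0, hn⟩ := (hP.to_subgroup (Subgroup.center P)).nontrivial_iff_card.1 this
  obtain ⟨z, hz⟩ := exists_prime_orderOf_dvd_card' (G := Subgroup.center P) 2
    (hn ▸ dvd_pow_self 2 hn0.ne')
  have oz : orderOf ((z : P) : G) = 2 := by rw [Subgroup.orderOf_coe, Subgroup.orderOf_coe, hz]
  have z2 : ((z : P) : G) ^ 2 = 1 := by rw [← oz, pow_orderOf_eq_one]
  have z1 : ((z : P) : G) ≠ 1 := fun e => by rw [e, orderOf_one] at oz; omega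
  obtain ⟨⟨c, hc⟩, c1⟩ := Subgroup.ne_bot_iff_exists_ne_one.1 h.Cne
  have zH := ((hm _).1 (z : P).2).1
  have vH := H.mul_mem (H.mul_mem (h.Cle hc) zH) (H.inv_mem (h.Cle hc))
  have v2 : (c * ((z : P) : G) * c⁻¹) ^ 2 = 1 := by rw [conj_pow, z2]; simp
  refine ⟨_, zH, _, vH, z2, v2, ?_, z1, fun e => z1 ?_, fun e => z1 ?_⟩
  · exact (congrArg Subtype.val
      (Subgroup.mem_center_iff.1 z.2 ⟨_, (hm _).2 ⟨vH, isTwo_of_sq v2⟩⟩)).symm
  · simpa [mul_assoc] using congrArg (fun y => c⁻¹ * y * c) e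
  · exact h.fpf c (h.Cle hc) (fun hK => c1 (Subtype.ext (h.disj c hc hK))) _
      (h.two_mem_K he zH (isTwo_of_sq z2)) (by rw [← mul_inv_eq_iff_eq_mul, ← e])

theorem Frob.no_four {H K C : Subgroup G} (h : Frob H K C) (ho : Odd (Nat.card K)) {u v : G}
    (hu : u ∈ H) (hv : v ∈ H) (u2 : u ^ 2 = 1) (v2 : v ^ 2 = 1) (e : u * v = v * u) :
    u = 1 ∨ v = 1 ∨ u = v := by
  by_contra hc
  push Not at hc
  rw [sq] at u2 v2
  have a1 : ∀ x, u * (u * x) = x := fun x => by rw [← mul_assoc, u2, one_mul]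
  have a2 : ∀ x, v * (v * x) = x := fun x => by rw [← mul_assoc, v2, one_mul]
  have a3 : ∀ x, v * (u * x) = u * (v * x) := fun x => by rw [← mul_assoc, ← e, mul_assoc]
  let A : Subgroup G :=
    { carrier := {a | a = 1 ∨ a = u ∨ a = v ∨ a = u * v}
      one_mem' := Or.inl rfl
      mul_mem' := by
        rintro _ _ (rfl | rfl | rfl | rfl) (rfl | rfl | rfl | rfl) <;>
          simp [mul_assoc, a1, a3, u2, v2, ← e]
      inv_mem' := by
        rintro _ (rfl | rfl | rfl | rfl)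
        · simp
        · exact Or.inr (Or.inl (inv_eq_of_mul_eq_one_right u2))
        · exact Or.inr (Or.inr (Or.inl (inv_eq_of_mul_eq_one_right v2)))
        · exact Or.inr (Or.inr (Or.inr (inv_eq_of_mul_eq_one_right
            (by simp [mul_assoc, a3, u2, v2])))) }
  have AH : A ≤ H := by
    rintro _ (rfl | rfl | rfl | rfl)
    exacts [one_mem _, hu, hv, mul_mem hu hv]
  have A2 : ∀ a ∈ A, a ^ 2 = 1 := by
    rintro _ (rfl | rfl | rfl | rfl) <;> simp [sq, mul_assoc, a3, u2, v2]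
  have hA : GT.Frob.HasFpfAction A := GT.Frob.hasFpfAction_of_fpf h.Kne
    (fun c hc => GT.Tr.mem_normalizer_of_conj_mem (h.Kn c (AH hc)))
    fun c hc h1 => (Subgroup.eq_bot_iff_forall _).2 fun k hk =>
      h.fpf c (AH hc) (fun hK => h1 (orderOf_eq_one_iff.1 (Nat.eq_one_of_dvd_coprimes
        ((isTwo_of_sq (A2 c hc)).coprime ho) dvd_rfl (K.orderOf_dvd_natCard hK)))) k hk.1
        (Subgroup.mem_centralizer_singleton_iff.1 hk.2).symm
  exact hc.2.2 (congrArg Subtype.val (hA.eq_of_mul_self_eq_one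
    (s := ⟨u, Or.inr (Or.inl rfl)⟩) (t := ⟨v, Or.inr (Or.inr (Or.inl rfl))⟩)
    (fun e => hc.1 (congrArg Subtype.val e)) (Subtype.ext u2)
    (fun e => hc.2.1 (congrArg Subtype.val e)) (Subtype.ext v2)))

theorem TC.isP2 [Finite Ω] (h : TC G Ω) {s : Set Ω} (hs : 4 ≤ s.ncard) :
    IsPGroup 2 (P2 G s) := by
  obtain ⟨t, hts, ht⟩ := Set.exists_subset_card_eq hs
  obtain ⟨K, C, hF, he⟩ := h.frob t ht
  obtain ⟨P, hP, hm⟩ := hF.exists_syl he
  exact hP.to_le ((P2_anti hts).trans ((Subgroup.closure_le _).2 fun g hg => (hm g).2 hg))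

theorem TC.mem_P2 [Finite Ω] (h : TC G Ω) {s : Set Ω} (hs : 4 ≤ s.ncard) {g : G} :
    g ∈ P2 G s ↔ (∀ x ∈ s, g • x = x) ∧ IsTwo g :=
  ⟨fun hg => ⟨mem_fx.1 (P2_le s hg), isTwo_of_mem (h.isP2 hs) hg⟩, fun hg => mem_P2_of hg.1 hg.2⟩

/-- `P2 G s` contains a four-group -/
theorem TC.exists_four [Finite Ω] (h : TC G Ω) {s : Set Ω} (hs : s.ncard = 4) :
    ∃ u ∈ P2 G s, ∃ v ∈ P2 G s, u ^ 2 = 1 ∧ v ^ 2 = 1 ∧ u * v = v * u ∧ u ≠ 1 ∧ v ≠ 1 ∧ u ≠ v := by
  obtain ⟨K, C, hF, he⟩ := h.frob s hs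
  obtain ⟨u, hu, v, hv, u2, v2, e⟩ := hF.exists_four he
  exact ⟨u, mem_P2_of (mem_fx.1 hu) (isTwo_of_sq u2), v, mem_P2_of (mem_fx.1 hv) (isTwo_of_sq v2),
    u2, v2, e⟩

/-- no four-group in a four-point stabilizer -/
def NoV (G Ω : Type*) [Group G] [MulAction G Ω] : Prop :=
  ∀ a b c d : Ω, D4 a b c d → ∀ u ∈ fixingSubgroup G ({a, b, c, d} : Set Ω),
    ∀ v ∈ fixingSubgroup G ({a, b, c, d} : Set Ω), u ^ 2 = 1 → v ^ 2 = 1 → u * v = v * u →
      u = 1 ∨ v = 1 ∨ u = v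

omit [Finite G] in
theorem conj_mem_fx4 {a b c d : Ω} {g u : G} (hu : u ∈ fixingSubgroup G ({a, b, c, d} : Set Ω)) :
    g * u * g⁻¹ ∈ fixingSubgroup G ({g • a, g • b, g • c, g • d} : Set Ω) := by
  rw [mem_fx4] at hu ⊢
  simp [mul_smul, hu]

theorem Hy.tc_or_noV [Finite Ω] (h : Hy G Ω) : TC G Ω ∨
    (NoV G Ω ∧ ∀ s : Set Ω, s.ncard = 4 →
      ∃ K C, Frob (fixingSubgroup G s) K C ∧ Odd (Nat.card K)) := by
  by_cases hV : NoV G Ω
  · refine Or.inr ⟨hV, fun s hs => ?_⟩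
    obtain ⟨K, C, hF⟩ := h.frob s hs
    refine ⟨K, C, hF, Nat.not_even_iff_odd.1 fun he => ?_⟩
    obtain ⟨u, hu, v, hv, u2, v2, e, h1, h2, h3⟩ := hF.exists_four he
    obtain ⟨a, b, c, d, hd, rfl⟩ := exists_D4_of_ncard_eq hs
    rcases hV a b c d hd u hu v hv u2 v2 e with h | h | h <;> contradiction
  · refine Or.inl ⟨h.four, h.card, fun s hs => ?_⟩
    obtain ⟨K, C, hF⟩ := h.frob s hs
    refine ⟨K, C, hF, Nat.not_odd_iff_even.1 fun ho => hV ?_⟩
    intro a b c d hd u hu v hv u2 v2 e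
    obtain ⟨a', b', c', d', hd', rfl⟩ := exists_D4_of_ncard_eq hs
    obtain ⟨g, rfl, rfl, rfl, rfl⟩ := tr4 h.four hd hd'
    have := hF.no_four ho (conj_mem_fx4 (g := g) hu) (conj_mem_fx4 hv)
      (by rw [conj_pow, u2]; simp) (by rw [conj_pow, v2]; simp)
      (by simpa [mul_assoc] using congrArg (fun y => g * y * g⁻¹) e)
    simpa [mul_inv_eq_iff_eq_mul] using this

/-- the hypothesis `Hy` from one Frobenius four-point stabilizer -/
theorem hy_of_frob [Finite Ω] (h4 : IsMultiplyPretransitive G Ω 4) {a b c d : Ω} (hd : D4 a b c d)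
    {C : Subgroup ↥(stabilizer G a ⊓ stabilizer G b ⊓ stabilizer G c ⊓ stabilizer G d)}
    (hC : IsFrobeniusComplement C) : Hy G Ω := by
  refine ⟨h4, hd.le_ncard (s := Set.univ) (Set.toFinite _) trivial trivial trivial trivial |>.trans
    (by simp), fun s hs => ?_⟩
  obtain ⟨a', b', c', d', hd', rfl⟩ := exists_D4_of_ncard_eq hs
  obtain ⟨g, rfl, rfl, rfl, rfl⟩ := tr4 h4 hd hd'
  have e : (stabilizer G a ⊓ stabilizer G b ⊓ stabilizer G c ⊓ stabilizer G d).map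
      (MulAut.conj g).toMonoidHom = fixingSubgroup G ({g • a, g • b, g • c, g • d} : Set Ω) := by
    ext x
    constructor
    · rintro ⟨y, hy, rfl⟩
      exact conj_mem_fx4 (mem_fx4.2 ⟨hy.1.1.1, hy.1.1.2, hy.1.2, hy.2⟩)
    · intro hx
      have := conj_mem_fx4 (g := g⁻¹) hx
      simp only [inv_smul_smul, mem_fx4] at this
      exact ⟨_, ⟨⟨⟨this.1, this.2.1⟩, this.2.2.1⟩, this.2.2.2⟩, by simp [mul_assoc]⟩
  exact ⟨_, _, frob_of_complement (hC.map_equiv (((MulAut.conj g).subgroupMap _).trans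
    (MulEquiv.subgroupCongr e)))⟩

end Cfsg.Agent.Q4
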