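import Mathlib
import Cfsg.Agent.Q4.Basic
import Cfsg.Agent.S4221
import Cfsg.Agent.S0418
import Cfsg.Agent.Perm.ThreeTrans

/-! # Witt's lemma and Hall's theorem (S4221) for S3404 -/

set_option autoImplicit false
set_option linter.unusedSectionVars false

namespace Cfsg.Agent.Q4

open MulAction

variable {G Ω : Type*} [Group G] [Finite G] [MulAction G Ω] [Finite Ω]

/-- Witt's lemma -/
theorem witt_conj (h4 : IsMultiplyPretransitive G Ω 4) {U : Subgroup G} {s : Set Ω}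
    (hs : s.ncard = 4) (hU : s ⊆ Fix Ω U)
    (hw : ∀ g : G, (∀ u ∈ U, g * u * g⁻¹ ∈ fixingSubgroup G s) →
      ∃ k ∈ fixingSubgroup G s, ∀ u ∈ U, k * (g * u * g⁻¹) * k⁻¹ ∈ U) :
    Tr4 (Subgroup.normalizer (U : Set G)) (Fix Ω U) := by
  obtain ⟨p, q, r, t, hd, rfl⟩ := exists_D4_of_ncard_eq hs
  have key : ∀ a ∈ Fix Ω U, ∀ b ∈ Fix Ω U, ∀ c ∈ Fix Ω U, ∀ d ∈ Fix Ω U, D4 a b c d →
      ∃ n ∈ Subgroup.normalizer (U : Set G), n • a = p ∧ n • b = q ∧ n • c = r ∧ n • d = t := by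
    intro a ha b hb c hc d hd' h
    obtain ⟨g, rfl, rfl, rfl, rfl⟩ := tr4 h4 h hd
    obtain ⟨k, hk, e⟩ := hw g fun u hu =>
      conj_mem_fx4 (mem_fx4.2 ⟨ha u hu, hb u hu, hc u hu, hd' u hu⟩)
    rw [mem_fx4] at hk
    refine ⟨k * g, GT.Tr.mem_normalizer_of_conj_mem fun u hu => ?_, ?_⟩
    · simpa [mul_assoc] using e u hu
    · simpa only [mul_smul] using hk
  intro a ha b hb c hc d hd a' ha' b' hb' c' hc' d' hd' h1 h2
  obtain ⟨n, hn, e1, e2, e3, e4⟩ := key a ha b hb c hc d hd h1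
  obtain ⟨m, hm, f1, f2, f3, f4⟩ := key a' ha' b' hb' c' hc' d' hd' h2
  refine ⟨m⁻¹ * n, mul_mem (inv_mem hm) hn, ?_⟩
  simp only [mul_smul, inv_smul_eq_iff, e1, e2, e3, e4, f1, f2, f3, f4, and_self]

/-- a permutation of prime order induced on `F` is induced by a `p`-element -/
theorem exists_lift {N : Subgroup G} {F : Set Ω} {σ : Equiv.Perm F} (hσ : σ ∈ resG N F) {p : ℕ}
    (hp : p.Prime) : ∃ n ∈ N, (∃ k, n ^ p ^ k = 1) ∧
      ∃ m, ¬ p ∣ m ∧ ∀ x : F, ((σ ^ m) x : Ω) = n • (x : Ω) := by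
  obtain ⟨n, hn, e⟩ := hσ
  obtain ⟨m, k, hm, hk⟩ := Perm.exists_pow_pPart hp n
  refine ⟨n ^ m, pow_mem hn m, ⟨k, hk⟩, m, hm, ?_⟩
  clear hm hk
  induction m with
  | zero => simp
  | succ m ih => intro x; rw [pow_succ', pow_succ', Equiv.Perm.mul_apply, e, ih, mul_smul]

open scoped Classical in
/-- Hall's theorem S4221 for a group induced on an invariant set -/
theorem hall4 {N : Subgroup G} {F : Set Ω} [Fintype F] (hinv : ∀ n ∈ N, ∀ x ∈ F, n • x ∈ F)
    (h4 : 4 ≤ F.ncard) (tr : Tr4 N F)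
    (hodd : ∀ n ∈ N, IsTwo n → ∀ a ∈ F, ∀ b ∈ F, ∀ c ∈ F, ∀ d ∈ F, D4 a b c d → n • a = a →
      n • b = b → n • c = c → n • d = d → ∀ x ∈ F, n • x = x) :
    ((F.ncard = 4 ∨ F.ncard = 5) ∧ resG N F = ⊤) ∨
      ((F.ncard = 6 ∨ F.ncard = 7) ∧ resG N F = alternatingGroup F) ∨
      (F.ncard = 11 ∧ Nat.card (resG N F) = 7920) := by
  have hc : Fintype.card F = F.ncard := by rw [← Nat.card_eq_fintype_card]; rfl
  obtain ⟨x⟩ : Nonempty (Fin 4 ↪ F) := Function.Embedding.nonempty_of_card_le (by simpa [hc])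
  rw [← hc]
  refine S4221.result (resG N F) (tr.four hinv) x (Nat.not_even_iff_odd.1 fun he => ?_)
  obtain ⟨σ, hσ⟩ := exists_prime_orderOf_dvd_card' (G := stabilizer (resG N F) x) 2 he.two_dvd
  have ho : orderOf ((σ : resG N F) : Equiv.Perm F) = 2 := by
    rw [Subgroup.orderOf_coe, Subgroup.orderOf_coe, hσ]
  obtain ⟨n, hn, h2, m, hm, e⟩ := exists_lift (σ : resG N F).2 Nat.prime_two
  have em : ((σ : resG N F) : Equiv.Perm F) ^ m = (σ : resG N F) := by
    rw [← pow_mod_orderOf, ho, show m % 2 = 1 by omega, pow_one]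
  rw [em] at e
  have fx : ∀ i, n • (x i : Ω) = x i := fun i => by
    rw [← e]; exact congrArg Subtype.val (DFunLike.congr_fun σ.2 i)
  have := hodd n hn h2 _ (x 0).2 _ (x 1).2 _ (x 2).2 _ (x 3).2
    (D4.of_coe ⟨by simp, by simp, by simp, by simp, by simp, by simp⟩) (fx 0) (fx 1) (fx 2) (fx 3)
  have e1 : ((σ : resG N F) : Equiv.Perm F) = 1 :=
    Equiv.ext fun y => Subtype.ext ((e y).trans (this y y.2))
  rw [e1, orderOf_one] at ho
  omega

theorem TC.tr4_P2 (h : TC G Ω) {s : Set Ω} (hs : s.ncard = 4) :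
    Tr4 (Subgroup.normalizer (P2 G s : Set G)) (Fix Ω (P2 G s)) :=
  witt_conj h.four hs (subset_Fix_P2 s) fun g hg => ⟨1, one_mem _, fun u hu => by
    simpa using mem_P2_of (mem_fx.1 (hg u hu)) ((isTwo_of_mem (h.isP2 hs.ge) hu).conj g)⟩

/-- a block is determined by any four of its points -/
theorem TC.P2_eq (h : TC G Ω) {s t : Set Ω} (hs : s.ncard = 4) (ht : 4 ≤ t.ncard)
    (hts : t ⊆ Fix Ω (P2 G s)) : P2 G t = P2 G s := by
  refine le_antisymm ?_ (le_P2 (h.isP2 hs.ge) hts)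
  obtain ⟨a, ha, b, hb, c, hc, d, hd, h1⟩ := exists_D4_of_le ht
  obtain ⟨a', b', c', d', h2, rfl⟩ := exists_D4_of_ncard_eq hs
  have hs' := subset_Fix_P2 (G := G) ({a', b', c', d'} : Set Ω)
  obtain ⟨n, hn, e1, e2, e3, e4⟩ := h.tr4_P2 hs a (hts ha) b (hts hb) c (hts hc) d (hts hd)
    a' (hs' (by simp)) b' (hs' (by simp)) c' (hs' (by simp)) d' (hs' (by simp)) h1 h2
  intro g hg
  refine (Subgroup.mem_normalizer_iff.1 hn g).2 (conj_mem_P2 ?_ hg)
  rintro y (rfl | rfl | rfl | rfl)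
  · rw [← e1, inv_smul_smul]; exact ha
  · rw [← e2, inv_smul_smul]; exact hb
  · rw [← e3, inv_smul_smul]; exact hc
  · rw [← e4, inv_smul_smul]; exact hd

/-- a 2-element fixing four points of a block fixes the block -/
theorem TC.fix_block (h : TC G Ω) {s : Set Ω} (hs : s.ncard = 4) {n : G} (h2 : IsTwo n)
    {a b c d : Ω} (ha : a ∈ Fix Ω (P2 G s)) (hb : b ∈ Fix Ω (P2 G s)) (hc : c ∈ Fix Ω (P2 G s))
    (hd : d ∈ Fix Ω (P2 G s)) (hD : D4 a b c d) (e1 : n • a = a) (e2 : n • b = b) (e3 : n • c = c)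
    (e4 : n • d = d) : n ∈ P2 G s := by
  rw [← h.P2_eq hs hD.ncard.ge (by rintro y (rfl | rfl | rfl | rfl) <;> assumption)]
  exact mem_P2_of (by rintro y (rfl | rfl | rfl | rfl) <;> assumption) h2

open scoped Classical in
theorem TC.hall_P2 (h : TC G Ω) {s : Set Ω} (hs : s.ncard = 4) [Fintype (Fix Ω (P2 G s))] :
    (((Fix Ω (P2 G s)).ncard = 4 ∨ (Fix Ω (P2 G s)).ncard = 5) ∧
        resG (Subgroup.normalizer (P2 G s : Set G)) (Fix Ω (P2 G s)) = ⊤) ∨
      (((Fix Ω (P2 G s)).ncard = 6 ∨ (Fix Ω (P2 G s)).ncard = 7) ∧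
        resG (Subgroup.normalizer (P2 G s : Set G)) (Fix Ω (P2 G s)) = alternatingGroup _) ∨
      ((Fix Ω (P2 G s)).ncard = 11 ∧
        Nat.card (resG (Subgroup.normalizer (P2 G s : Set G)) (Fix Ω (P2 G s))) = 7920) :=
  hall4 (fun _ hn _ hx => smul_mem_Fix_of_normalizer hn hx)
    (hs ▸ Set.ncard_le_ncard (subset_Fix_P2 s) (Set.toFinite _)) (h.tr4_P2 hs)
    fun _ _ h2 _ ha _ hb _ hc _ hd hD e1 e2 e3 e4 _ hx =>
      hx _ (h.fix_block hs h2 ha hb hc hd hD e1 e2 e3 e4)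

/-- Witt's lemma for an element of prime order outside the kernel -/
theorem tr4_x (h4 : IsMultiplyPretransitive G Ω 4) {s : Set Ω} (hs : s.ncard = 4) {K C : Subgroup G}
    (hF : Frob (fixingSubgroup G s) K C) {x : G} (hx : x ∈ fixingSubgroup G s) (hxK : x ∉ K)
    (hp : (orderOf x).Prime) :
    Tr4 (Subgroup.normalizer (Subgroup.zpowers x : Set G)) (Fix Ω (Subgroup.zpowers x)) := by
  refine witt_conj h4 hs (fun y hy => mem_Fix_zpowers.2 (mem_fx.1 hx y hy)) fun g hg => ?_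
  obtain ⟨u, hu, e⟩ := hF.conj_prime hx hxK (hg x (Subgroup.mem_zpowers x)) hp (orderOf_conj' g x)
  refine ⟨u, hu, ?_⟩
  rintro _ ⟨j, rfl⟩
  simpa only [conj_zpow] using zpow_mem e j

theorem mem_K_of_zpow {K : Subgroup G} {x : G} (hp : (orderOf x).Prime) {y : G}
    (hy : y ∈ Subgroup.zpowers x) (hK : y ∈ K) (h1 : y ≠ 1) : x ∈ K := by
  have := Fact.mk hp
  have e : Subgroup.zpowers y = Subgroup.zpowers x :=
    Subgroup.eq_of_le_of_card_ge (Subgroup.zpowers_le_of_mem hy) (by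
      have h2 := (Subgroup.zpowers x).orderOf_dvd_natCard hy
      rw [Nat.card_zpowers] at h2 ⊢
      rw [Nat.card_zpowers, ((Nat.dvd_prime hp).1 h2).resolve_left (by simpa using h1)])
  exact Subgroup.zpowers_le_of_mem hK (e ▸ Subgroup.mem_zpowers x)

/-- a 2-element of the four-point stabilizer normalizing `⟨x⟩` is trivial -/
theorem Frob.eq_one_of_norm {H K C : Subgroup G} (hF : Frob H K C) (he : Even (Nat.card K)) {x : G}
    (hx : x ∈ H) (hxK : x ∉ K) (hp : (orderOf x).Prime) {n : G} (hn : n ∈ H) (h2 : IsTwo n)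
    (hN : n * x * n⁻¹ ∈ Subgroup.zpowers x) : n = 1 := by
  have hK := hF.two_mem_K he hn h2
  have h1 : n * x * n⁻¹ * x⁻¹ = 1 := by
    by_contra h1
    refine hxK (mem_K_of_zpow hp (mul_mem hN (inv_mem (Subgroup.mem_zpowers x))) ?_ h1)
    simpa [mul_assoc] using K.mul_mem hK (hF.Kn x hx _ (K.inv_mem hK))
  exact hF.fpf x hx hxK n hK (by
    calc x * n = (n * x * n⁻¹ * x⁻¹) * x * n := by rw [h1, one_mul]
      _ = n * x := by group)

open scoped Classical in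
theorem TC.hall_x (h : TC G Ω) {s : Set Ω} (hs : s.ncard = 4) {K C : Subgroup G}
    (hF : Frob (fixingSubgroup G s) K C) (he : Even (Nat.card K)) {x : G}
    (hx : x ∈ fixingSubgroup G s) (hxK : x ∉ K) (hp : (orderOf x).Prime)
    [Fintype (Fix Ω (Subgroup.zpowers x))] :
    (((Fix Ω (Subgroup.zpowers x)).ncard = 4 ∨ (Fix Ω (Subgroup.zpowers x)).ncard = 5) ∧
        resG (Subgroup.normalizer (Subgroup.zpowers x : Set G)) (Fix Ω (Subgroup.zpowers x)) = ⊤) ∨
      (((Fix Ω (Subgroup.zpowers x)).ncard = 6 ∨ (Fix Ω (Subgroup.zpowers x)).ncard = 7) ∧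
        resG (Subgroup.normalizer (Subgroup.zpowers x : Set G)) (Fix Ω (Subgroup.zpowers x)) =
          alternatingGroup _) ∨
      ((Fix Ω (Subgroup.zpowers x)).ncard = 11 ∧ Nat.card (resG (Subgroup.normalizer
        (Subgroup.zpowers x : Set G)) (Fix Ω (Subgroup.zpowers x))) = 7920) := by
  have hs' : s ⊆ Fix Ω (Subgroup.zpowers x) := fun y hy => mem_Fix_zpowers.2 (mem_fx.1 hx y hy)
  have tr := tr4_x h.four hs hF hx hxK hp
  refine hall4 (fun _ hn _ hx => smul_mem_Fix_of_normalizer hn hx)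
    (hs ▸ Set.ncard_le_ncard hs' (Set.toFinite _)) tr ?_
  intro n hn h2 a ha b hb c hc d hd hD e1 e2 e3 e4
  obtain ⟨a', b', c', d', hD', rfl⟩ := exists_D4_of_ncard_eq hs
  obtain ⟨m, hm, rfl, rfl, rfl, rfl⟩ := tr a ha b hb c hc d hd a' (hs' (by simp)) b' (hs' (by simp))
    c' (hs' (by simp)) d' (hs' (by simp)) hD hD'
  have := hF.eq_one_of_norm he hx hxK hp (conj_mem_fx4 (g := m) (mem_fx4.2 ⟨e1, e2, e3, e4⟩))
    (h2.conj m) ((Subgroup.mem_normalizer_iff.1 (mul_mem (mul_mem hm hn) (inv_mem hm)) x).1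
      (Subgroup.mem_zpowers x))
  have : n = 1 := by simpa [mul_assoc] using congrArg (fun y => m⁻¹ * y * m) this
  simp [this]

theorem commutator_centralizes {x : G} {c : Subgroup.normalizer (Subgroup.zpowers x : Set G)}
    (hc : c ∈ commutator (Subgroup.normalizer (Subgroup.zpowers x : Set G))) :
    (c : G) * x * (c : G)⁻¹ = x := by
  have : commutator (Subgroup.normalizer (Subgroup.zpowers x : Set G)) ≤
      (Subgroup.centralizer {x}).subgroupOf _ := Subgroup.commutator_le.2 fun a _ b _ => by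
    obtain ⟨i, hi⟩ := (Subgroup.mem_normalizer_iff.1 a.2 x).1 (Subgroup.mem_zpowers x)
    obtain ⟨j, hj⟩ := (Subgroup.mem_normalizer_iff.1 b.2 x).1 (Subgroup.mem_zpowers x)
    obtain ⟨l, hl⟩ := (Subgroup.mem_normalizer_iff.1 (b * a)⁻¹.2 x).1 (Subgroup.mem_zpowers x)
    simp only at hi hj
    have e : (a : G) * b * x * ((a : G) * b)⁻¹ = b * a * x * ((b : G) * a)⁻¹ := by
      calc (a : G) * b * x * ((a : G) * b)⁻¹ = a * (b * x * (b : G)⁻¹) * (a : G)⁻¹ := by group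
        _ = x ^ (i * j) := by rw [← hj, ← conj_zpow, ← hi, zpow_mul]
        _ = b * (a * x * (a : G)⁻¹) * (b : G)⁻¹ := by
          rw [← hi, ← conj_zpow, ← hj, mul_comm, zpow_mul]
        _ = _ := by group
    have e2 := congrArg (· ^ l) e
    simp only [conj_zpow] at e2
    simp only [Subgroup.coe_inv, Subgroup.coe_mul] at hl
    rw [hl] at e2
    rw [Subgroup.mem_subgroupOf, Subgroup.mem_centralizer_singleton_iff, commutatorElement_def]
    simp only [Subgroup.coe_inv, Subgroup.coe_mul]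
    calc (a : G) * b * (a : G)⁻¹ * (b : G)⁻¹ * x
        = a * b * (((b : G) * a)⁻¹ * x * ((b : G) * a)⁻¹⁻¹) * ((a : G) * b)⁻¹ *
          ((a : G) * b * (a : G)⁻¹ * (b : G)⁻¹) := by group
      _ = _ := by rw [e2]; group
  have h := Subgroup.mem_centralizer_singleton_iff.1 (Subgroup.mem_subgroupOf.1 (this hc))
  rw [h]; group

theorem perfect_eleven {α : Type*} [Fintype α] [DecidableEq α] (hα : Fintype.card α = 11)
    {X : Subgroup (Equiv.Perm α)} (h4 : IsMultiplyPretransitive X α 4) (hX : Nat.card X = 7920) :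
    ⁅X, X⁆ = X := by
  have hsim : IsSimpleGroup X := (S0418.result hα X (fun y => by
    have e := Perm.Hall4.card_eq_S4 h4 (a := y 0) (b := y 1) (c := y 2) (d := y 3) (by simp)
    rw [hX, hα, show Nat.choose 11 4 * 24 = 7920 by decide] at e
    have e1 : Perm.Hall4.S4 X (y 0) (y 1) (y 2) (y 3) = ⊥ := Subgroup.card_eq_one.1 (by omega)
    refine (Subgroup.eq_bot_iff_forall _).2 fun σ hσ => (Subgroup.eq_bot_iff_forall _).1 e1 σ ?_
    exact Perm.Hall4.mem_S4.2 ⟨DFunLike.congr_fun hσ 0, DFunLike.congr_fun hσ 1,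
      DFunLike.congr_fun hσ 2, DFunLike.congr_fun hσ 3⟩)).1
  rcases (inferInstance : (commutator X).Normal).eq_bot_or_eq_top with e | e
  · exfalso
    have hc : IsMulCommutative X := (commutator_eq_bot_iff _).1 e
    let _ : CommGroup X := { (inferInstance : Group X) with mul_comm := hc.is_comm.comm }
    have := IsSimpleGroup.prime_card (α := X)
    rw [hX] at this
    norm_num at this
  · rw [← Subgroup.map_subtype_commutator, e, ← MonoidHom.range_eq_map, Subgroup.range_subtype]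

/-- a real element of prime order outside the kernel fixes at most five points -/
theorem TC.real_le_five (h : TC G Ω) {s : Set Ω} (hs : s.ncard = 4) {K C : Subgroup G}
    (hF : Frob (fixingSubgroup G s) K C) (he : Even (Nat.card K)) {x : G}
    (hx : x ∈ fixingSubgroup G s) (hxK : x ∉ K) (hp : (orderOf x).Prime) {g : G}
    (hg : g * x * g⁻¹ = x⁻¹) : (Fix Ω (Subgroup.zpowers x)).ncard ≤ 5 := by
  classical
  have := Fintype.ofFinite (Fix Ω (Subgroup.zpowers x))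
  by_contra h5
  have hc : Fintype.card (Fix Ω (Subgroup.zpowers x)) = (Fix Ω (Subgroup.zpowers x)).ncard := by
    rw [← Nat.card_eq_fintype_card]; rfl
  have hinv : ∀ n ∈ Subgroup.normalizer (Subgroup.zpowers x : Set G),
      ∀ y ∈ Fix Ω (Subgroup.zpowers x), n • y ∈ Fix Ω (Subgroup.zpowers x) :=
    fun _ hn _ hy => smul_mem_Fix_of_normalizer hn hy
  have hperf : ⁅resG (Subgroup.normalizer (Subgroup.zpowers x : Set G)) (Fix Ω (Subgroup.zpowers x)),
      resG (Subgroup.normalizer (Subgroup.zpowers x : Set G)) (Fix Ω (Subgroup.zpowers x))⁆ =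
      resG (Subgroup.normalizer (Subgroup.zpowers x : Set G)) (Fix Ω (Subgroup.zpowers x)) := by
    rcases h.hall_x hs hF he hx hxK hp with h1 | h1 | h1
    · omega
    · rw [h1.2]
      exact commutator_alternatingGroup_eq_self (by rw [Nat.card_eq_fintype_card]; omega)
    · exact perfect_eleven (hc.trans h1.1) ((tr4_x h.four hs hF hx hxK hp).four hinv) h1.2
  have gN : g ∈ Subgroup.normalizer (Subgroup.zpowers x : Set G) :=
    GT.Tr.mem_normalizer_of_conj_mem (by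
      rintro _ ⟨j, rfl⟩
      simpa only [← conj_zpow, hg] using zpow_mem (inv_mem (Subgroup.mem_zpowers x)) j)
  have m1 : resHom _ _ hinv ⟨g, gN⟩ ∈ (commutator _).map (resHom _ _ hinv) := by
    rw [map_commutator_eq, range_resHom, hperf, ← range_resHom hinv]
    exact ⟨_, rfl⟩
  obtain ⟨c, hc1, hc2⟩ := m1
  have hk : c⁻¹ * ⟨g, gN⟩ ∈ (resHom _ _ hinv).ker := by
    rw [MonoidHom.mem_ker, map_mul, map_inv, hc2, inv_mul_cancel]
  rw [mem_ker_resHom] at hk
  have c1 := commutator_centralizes (inv_mem hc1)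
  set k : G := ((c⁻¹ * ⟨g, gN⟩ : Subgroup.normalizer (Subgroup.zpowers x : Set G)) : G) with hkd
  have k1 : k * x * k⁻¹ = x⁻¹ := by
    calc k * x * k⁻¹ = (c⁻¹ : _) * (g * x * g⁻¹) * ((c⁻¹ : _) : G)⁻¹ := by
          simp [hkd, mul_assoc]
      _ = ((c⁻¹ : _) * x * ((c⁻¹ : _) : G)⁻¹)⁻¹ := by rw [hg]; group
      _ = x⁻¹ := by rw [c1]
  have kH : k ∈ fixingSubgroup G s :=
    mem_fx.2 fun y hy => hk y (mem_Fix_zpowers.2 (mem_fx.1 hx y hy))
  obtain ⟨m, j, hm, hj⟩ := Perm.exists_pow_pPart Nat.prime_two k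
  have k2 : k ^ 2 * x * (k ^ 2)⁻¹ = x := by
    calc k ^ 2 * x * (k ^ 2)⁻¹ = k * (k * x * k⁻¹) * k⁻¹ := by rw [sq]; group
      _ = k * x⁻¹ * k⁻¹ := by rw [k1]
      _ = (k * x * k⁻¹)⁻¹ := by group
      _ = x := by rw [k1, inv_inv]
  have k3 : ∀ i : ℕ, k ^ (2 * i + 1) * x * (k ^ (2 * i + 1))⁻¹ = x⁻¹ := fun i => by
    induction i with
    | zero => simpa using k1
    | succ i ih =>
      calc k ^ (2 * (i + 1) + 1) * x * (k ^ (2 * (i + 1) + 1))⁻¹
          = k ^ (2 * i + 1) * (k ^ 2 * x * (k ^ 2)⁻¹) * (k ^ (2 * i + 1))⁻¹ := by group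
        _ = x⁻¹ := by rw [k2, ih]
  obtain ⟨i, rfl⟩ : ∃ i, m = 2 * i + 1 := ⟨m / 2, by omega⟩
  have e1 := hF.eq_one_of_norm he hx hxK hp (pow_mem kH _) ⟨j, hj⟩
    (k3 i ▸ inv_mem (Subgroup.mem_zpowers x))
  have e2 := k3 i
  rw [e1] at e2
  exact hxK (hF.two_mem_K he hx (isTwo_of_sq (by
    rw [sq, mul_eq_one_iff_eq_inv]; simpa using e2)))

end Cfsg.Agent.Q4
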