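import Mathlib
import Cfsg.Agent.Q4.Hall
import Cfsg.Agent.Perm.TwoCount
import Cfsg.Agent.GT.PGroupChain
import Cfsg.Agent.Inv.DCovQ

/-! # Counting in the Steiner system of fixed point sets -/

set_option autoImplicit false
set_option linter.unusedSectionVars false

namespace Cfsg.Agent.Q4

open MulAction

variable {G Ω : Type*} [Group G] [Finite G] [MulAction G Ω] [Finite Ω]

theorem ncard_offDiag (s : Set Ω) : s.offDiag.ncard = s.ncard * s.ncard - s.ncard := by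
  classical
  obtain ⟨s, rfl⟩ := (Set.toFinite s).exists_finset_coe
  rw [← Finset.coe_offDiag, Set.ncard_coe_finset, Set.ncard_coe_finset, Finset.offDiag_card]

theorem fib_dvd {α β : Type*} {s : Set α} (hs : s.Finite) (p : α → β) {n : ℕ}
    (h : ∀ a ∈ s, {b | b ∈ s ∧ p b = p a}.ncard = n) : n ∣ s.ncard := by
  have := Perm.TwoCount.dcount hs (hs.image p) (fun x y => p x = y) (r := 1) (t := n)
    (fun x hx => Set.ncard_eq_one.2 ⟨p x, Set.eq_singleton_iff_unique_mem.2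
      ⟨⟨⟨x, hx, rfl⟩, rfl⟩, fun y hy => hy.2.symm⟩⟩) (by rintro _ ⟨a, ha, rfl⟩; exact h a ha)
  exact ⟨_, by rw [← mul_one s.ncard, this, mul_comm]⟩

theorem smul_mem_bl {s t : Set Ω} {g : G} (h : ∀ y ∈ s, g • y ∈ t) {x : Ω}
    (hx : x ∈ Fix Ω (P2 G s)) : g • x ∈ Fix Ω (P2 G t) := fun u hu => by
  have := hx _ (conj_mem_P2 (u := g⁻¹) (by simpa using h) hu)
  rwa [inv_inv, mul_smul, mul_smul, inv_smul_eq_iff] at this

theorem bl_card_le (h4 : IsMultiplyPretransitive G Ω 4) {s t : Set Ω} (hs : s.ncard = 4)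
    (ht : t.ncard = 4) : (Fix Ω (P2 G s)).ncard ≤ (Fix Ω (P2 G t)).ncard := by
  obtain ⟨a, b, c, d, h1, rfl⟩ := exists_D4_of_ncard_eq hs
  obtain ⟨a', b', c', d', h2, rfl⟩ := exists_D4_of_ncard_eq ht
  obtain ⟨g, rfl, rfl, rfl, rfl⟩ := tr4 h4 h1 h2
  exact Set.ncard_le_ncard_of_injOn (g • ·) (fun x hx => smul_mem_bl (by
    rintro y (rfl | rfl | rfl | rfl) <;> simp) hx) (MulAction.injective g).injOn (Set.toFinite _)

theorem TC.bl_eq (h : TC G Ω) {s : Set Ω} (hs : s.ncard = 4) {a b c d : Ω} (hD : D4 a b c d)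
    (ha : a ∈ Fix Ω (P2 G s)) (hb : b ∈ Fix Ω (P2 G s)) (hc : c ∈ Fix Ω (P2 G s))
    (hd : d ∈ Fix Ω (P2 G s)) : Fix Ω (P2 G ({a, b, c, d} : Set Ω)) = Fix Ω (P2 G s) := by
  rw [h.P2_eq hs hD.ncard.ge (by rintro y (rfl | rfl | rfl | rfl) <;> assumption)]

theorem mem_bl (G : Type*) [Group G] [MulAction G Ω] (a b c d : Ω) :
    a ∈ Fix Ω (P2 G ({a, b, c, d} : Set Ω)) ∧ b ∈ Fix Ω (P2 G ({a, b, c, d} : Set Ω)) ∧
      c ∈ Fix Ω (P2 G ({a, b, c, d} : Set Ω)) ∧ d ∈ Fix Ω (P2 G ({a, b, c, d} : Set Ω)) :=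
  ⟨subset_Fix_P2 _ (by simp), subset_Fix_P2 _ (by simp), subset_Fix_P2 _ (by simp),
    subset_Fix_P2 _ (by simp)⟩

theorem bl_subset {Q : Subgroup G} (hQ : IsPGroup 2 Q) {a b c d : Ω} (ha : a ∈ Fix Ω Q)
    (hb : b ∈ Fix Ω Q) (hc : c ∈ Fix Ω Q) (hd : d ∈ Fix Ω Q) :
    Fix Ω (P2 G ({a, b, c, d} : Set Ω)) ⊆ Fix Ω Q :=
  Fix_anti (le_P2 hQ (by rintro y (rfl | rfl | rfl | rfl) <;> assumption))

theorem TC.sub_dvd (h : TC G Ω) {k : ℕ} (hk : ∀ s : Set Ω, s.ncard = 4 → (Fix Ω (P2 G s)).ncard = k)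
    {Q : Subgroup G} (hQ : IsPGroup 2 Q) (h4 : 4 ≤ (Fix Ω Q).ncard) :
    k - 3 ∣ (Fix Ω Q).ncard - 3 := by
  obtain ⟨a, ha, b, hb, c, hc, -, -, ⟨ab, ac, -, bc, -, -⟩⟩ := exists_D4_of_le h4
  have h3 : ({a, b, c} : Set Ω).ncard = 3 := Set.ncard_eq_three.2 ⟨a, b, c, ab, ac, bc, rfl⟩
  have hD : ∀ {x}, x ∉ ({a, b, c} : Set Ω) → D4 a b c x := fun {x} hx => by
    simp only [Set.mem_insert_iff, Set.mem_singleton_iff, not_or] at hx
    exact ⟨ab, ac, Ne.symm hx.1, bc, Ne.symm hx.2.1, Ne.symm hx.2.2⟩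
  nth_rewrite 2 [← h3]
  rw [← Set.ncard_sdiff (by rintro y (rfl | rfl | rfl) <;> assumption) (Set.toFinite _)]
  refine fib_dvd (Set.toFinite _) (fun x => Fix Ω (P2 G ({a, b, c, x} : Set Ω))) fun x hx => ?_
  obtain ⟨m1, m2, m3, -⟩ := mem_bl G a b c x
  rw [← hk _ (hD hx.2).ncard, ← h3,
    ← Set.ncard_sdiff (by rintro y (rfl | rfl | rfl) <;> assumption) (Set.toFinite _)]
  congr 1
  ext y
  exact ⟨fun hy => ⟨hy.2 ▸ (mem_bl G a b c y).2.2.2, hy.1.2⟩, fun hy =>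
    ⟨⟨bl_subset hQ ha hb hc hx.1 hy.1, hy.2⟩, h.bl_eq (hD hx.2).ncard (hD hy.2) m1 m2 m3 hy.1⟩⟩

section Step

variable (h : TC G Ω) {Q : Subgroup G} (hQ : IsPGroup 2 Q) {t : G} (t2 : IsTwo t)
  (tN : t ∈ Subgroup.normalizer (Q : Set G)) (tt : t ^ 2 ∈ Q) {a : Ω} (ha : a ∈ Fix Ω Q)
  (ta : t • a ≠ a)
include h hQ t2 tN tt ha ta

theorem TC.blk {c d : Ω} (hc : c ∈ Fix Ω Q) (hd : d ∈ Fix Ω Q) (hD : D4 a (t • a) c d)
    (e1 : t • c = c ∨ t • c = d) (e2 : t • d = c ∨ t • d = d) {B : Set Ω}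
    (hB : Fix Ω (P2 G ({a, t • a, c, d} : Set Ω)) = B) :
    B ⊆ Fix Ω Q ∧ (∀ x ∈ B, t • x ∈ B) ∧ {x | x ∈ B ∧ t • x = x}.ncard ≤ 3 ∧
      B.ncard % 2 = {x | x ∈ B ∧ t • x = x}.ncard % 2 ∧
      (B.ncard = 6 ∨ B.ncard = 7 → {x | x ∈ B ∧ t • x = x}.ncard + 4 = B.ncard) := by
  classical
  subst hB
  have sub := bl_subset hQ ha (smul_mem_Fix_of_normalizer tN ha) hc hd
  have zz : ∀ x ∈ Fix Ω Q, t • t • x = x := fun x hx => by rw [← mul_smul, ← sq, hx _ tt]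
  have hN : t ∈ Subgroup.normalizer (P2 G ({a, t • a, c, d} : Set Ω) : Set G) :=
    mem_normalizer_P2 (Set.toFinite _) (by
      rintro y (rfl | rfl | rfl | rfl)
      · simp
      · simp [zz a ha]
      · rcases e1 with e | e <;> simp [e]
      · rcases e2 with e | e <;> simp [e])
  have inv := fun x hx => smul_mem_Fix_of_normalizer (Ω := Ω) hN (x := x) hx
  obtain ⟨j, hj⟩ := id t2
  refine ⟨sub, inv, ?_, Perm.ncard_modEq_fixed_of_pow Nat.prime_two hj _ (Set.toFinite _) inv,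
    fun hk => ?_⟩
  · by_contra hc
    obtain ⟨p, hp, q, hq, r, hr, s, hs, hD'⟩ := exists_D4_of_le (Nat.succ_le_of_lt (not_le.1 hc))
    exact ta ((mem_bl G a (t • a) c d).1 _
      (h.fix_block hD.ncard t2 hp.1 hq.1 hr.1 hs.1 hD' hp.2 hq.2 hr.2 hs.2))
  · have := Fintype.ofFinite (Fix Ω (P2 G ({a, t • a, c, d} : Set Ω)))
    have hA := ((h.hall_P2 hD.ncard).resolve_left (by omega)).resolve_right (by omega)
    obtain ⟨σ, hσ⟩ := exists_res (Set.toFinite _) inv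
    have s1 := hA.2.le (mem_resG.2 ⟨t, hN, hσ⟩)
    have s2 := Inv.DC.four_dvd_card (τ := σ) (Equiv.ext fun x => Subtype.ext (by
      rw [Equiv.Perm.mul_apply, hσ, hσ, zz _ (sub x.2)]; rfl)) (by
        convert Equiv.Perm.mem_alternatingGroup.1 s1)
    have s3 : 0 < σ.support.card := Finset.card_pos.2 ⟨⟨a, (mem_bl G a (t • a) c d).1⟩,
      Equiv.Perm.mem_support.2 fun e => ta ((hσ _).symm.trans (congrArg Subtype.val e))⟩
    have s4 : {x | x ∈ Fix Ω (P2 G ({a, t • a, c, d} : Set Ω)) ∧ t • x = x}.ncard =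
        σ.supportᶜ.card := by
      rw [← Set.ncard_coe_finset, ← Set.ncard_image_of_injective _ Subtype.val_injective]
      congr 1
      ext x
      simp only [Set.mem_ofPred_eq, Set.mem_image, Finset.mem_coe, Finset.mem_compl,
        Equiv.Perm.notMem_support]
      exact ⟨fun hx => ⟨⟨x, hx.1⟩, Subtype.ext ((hσ _).trans hx.2), rfl⟩, by
        rintro ⟨y, hy, rfl⟩; exact ⟨y.2, by rw [← hσ, hy]⟩⟩
    have s5 := Finset.card_add_card_compl σ.support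
    rw [← Nat.card_eq_fintype_card, Nat.card_coe_set_eq] at s5
    omega

omit h hQ t2 tN in
theorem D4_fix {p q : Ω} (hp : t • p = p) (hq : t • q = q) (pq : p ≠ q) : D4 a (t • a) p q := by
  have k : ∀ {y : Ω}, t • y = y → a ≠ y ∧ t • a ≠ y := fun hy =>
    ⟨fun e => ta (e ▸ hy), fun e => ta (by rw [e, ← hy, ← e, ← mul_smul, ← sq, ha _ tt])⟩
  exact ⟨ta.symm, (k hp).1, (k hq).1, (k hp).2, (k hq).2, pq⟩

theorem TC.six_dvd (hk : ∀ s : Set Ω, s.ncard = 4 → (Fix Ω (P2 G s)).ncard % 2 = 1) :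
    6 ∣ {x | x ∈ Fix Ω Q ∧ t • x = x}.offDiag.ncard := by
  refine fib_dvd (Set.toFinite _) (fun x => Fix Ω (P2 G ({a, t • a, x.1, x.2} : Set Ω))) ?_
  rintro ⟨p, q⟩ ⟨hp, hq, pq⟩
  dsimp only at hp hq pq ⊢
  have hD := D4_fix tt ha ta hp.2 hq.2 pq
  obtain ⟨b1, -, b2, b3, -⟩ := h.blk hQ t2 tN tt ha ta hp.1 hq.1 hD (Or.inl hp.2) (Or.inr hq.2) rfl
  obtain ⟨m1, m2, m3, m4⟩ := mem_bl G a (t • a) p q
  have b4 := Set.ncard_le_ncard (s := {p, q})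
    (t := {x | x ∈ Fix Ω (P2 G ({a, t • a, p, q} : Set Ω)) ∧ t • x = x})
    (by rintro y (rfl | rfl); exacts [⟨m3, hp.2⟩, ⟨m4, hq.2⟩]) (Set.toFinite _)
  rw [Set.ncard_pair pq] at b4
  rw [hk _ hD.ncard] at b3
  have e := ncard_offDiag {x | x ∈ Fix Ω (P2 G ({a, t • a, p, q} : Set Ω)) ∧ t • x = x}
  rw [show {x | x ∈ Fix Ω (P2 G ({a, t • a, p, q} : Set Ω)) ∧ t • x = x}.ncard = 3 by omega] at e
  rw [show 6 = 3 * 3 - 3 from rfl, ← e]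
  congr 1
  ext ⟨x, y⟩
  exact ⟨fun ⟨⟨h1, h2, h3⟩, h4⟩ => ⟨⟨h4 ▸ (mem_bl G a (t • a) x y).2.2.1, h1.2⟩,
      ⟨h4 ▸ (mem_bl G a (t • a) x y).2.2.2, h2.2⟩, h3⟩,
    fun ⟨h1, h2, h3⟩ => ⟨⟨⟨b1 h1.1, h1.2⟩, ⟨b1 h2.1, h2.2⟩, h3⟩,
      h.bl_eq hD.ncard (D4_fix tt ha ta h1.2 h2.2 h3) m1 m2 h1.1 h2.1⟩⟩

theorem TC.count {k : ℕ} (hk : ∀ s : Set Ω, s.ncard = 4 → (Fix Ω (P2 G s)).ncard = k)
    (k6 : k = 6 ∨ k = 7) : ∃ y, y + {x | x ∈ Fix Ω Q ∧ t • x = x}.ncard + 2 = (Fix Ω Q).ncard ∧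
      {x | x ∈ Fix Ω Q ∧ t • x = x}.offDiag.ncard * 2 = y * ((k - 4) * (k - 4) - (k - 4)) := by
  have zz : ∀ x ∈ Fix Ω Q, t • t • x = x := fun x hx => by rw [← mul_smul, ← sq, hx _ tt]
  have cnt : ∀ B : Set Ω, a ∈ B → t • a ∈ B → (B \ ({x | t • x = x} ∪ {a, t • a})).ncard +
      {x | x ∈ B ∧ t • x = x}.ncard + 2 = B.ncard := fun B h1 h2 => by
    rw [← Set.ncard_pair ta.symm, add_assoc, ← Set.ncard_union_eq (Set.disjoint_right.2 (by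
      rintro y (rfl | rfl) hy
      · exact ta hy.2
      · exact ta (hy.2.symm.trans (zz a ha)))), ← Set.ncard_sdiff_add_ncard_of_subset
      (s := {x | x ∈ B ∧ t • x = x} ∪ {a, t • a}) (t := B)
      (by rintro y (hy | rfl | rfl); exacts [hy.1, h1, h2]) (Set.toFinite _)]
    congr 2
    ext y
    simp only [Set.mem_sdiff, Set.mem_union, Set.mem_ofPred_eq]
    tauto
  refine ⟨_, cnt _ ha (smul_mem_Fix_of_normalizer tN ha), Perm.TwoCount.dcount (Set.toFinite _)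
    (Set.toFinite _) (fun x y => y ∈ Fix Ω (P2 G ({a, t • a, x.1, x.2} : Set Ω))) ?_ ?_⟩
  · rintro ⟨p, q⟩ ⟨hp, hq, pq⟩
    dsimp only at hp hq pq ⊢
    have hD := D4_fix tt ha ta hp.2 hq.2 pq
    obtain ⟨b1, -, -, -, b2⟩ := h.blk hQ t2 tN tt ha ta hp.1 hq.1 hD (Or.inl hp.2) (Or.inr hq.2) rfl
    have c := cnt _ (mem_bl G a (t • a) p q).1 (mem_bl G a (t • a) p q).2.1
    have := b2 (by rwa [hk _ hD.ncard])
    rw [← show (Fix Ω (P2 G ({a, t • a, p, q} : Set Ω)) \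
      ({x | t • x = x} ∪ {a, t • a})).ncard = 2 by omega]
    congr 1
    ext y
    exact ⟨fun hy => ⟨hy.2, hy.1.2⟩, fun hy => ⟨⟨b1 hy.1, hy.2⟩, hy.1⟩⟩
  · intro x hx
    have h1 := hx.2
    simp only [Set.mem_union, Set.mem_ofPred_eq, Set.mem_insert_iff, Set.mem_singleton_iff,
      not_or] at h1
    have hD : D4 a (t • a) x (t • x) := ⟨ta.symm, Ne.symm h1.2.1,
      fun e => h1.2.2 (by rw [e, zz x hx.1]), Ne.symm h1.2.2,
      fun e => h1.2.1 (smul_left_cancel t e).symm, Ne.symm h1.1⟩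
    obtain ⟨b1, -, -, -, b2⟩ := h.blk hQ t2 tN tt ha ta hx.1 (smul_mem_Fix_of_normalizer tN hx.1) hD
      (Or.inr rfl) (Or.inl (zz x hx.1)) rfl
    obtain ⟨m1, m2, m3, -⟩ := mem_bl G a (t • a) x (t • x)
    have := b2 (by rwa [hk _ hD.ncard])
    rw [hk _ hD.ncard] at this
    rw [show k - 4 = {y | y ∈ Fix Ω (P2 G ({a, t • a, x, t • x} : Set Ω)) ∧ t • y = y}.ncard by omega,
      ← ncard_offDiag]
    congr 1
    ext ⟨p, q⟩
    constructor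
    · rintro ⟨⟨hp, hq, pq⟩, hx'⟩
      have hD' := D4_fix tt ha ta hp.2 hq.2 pq
      obtain ⟨-, b3, -⟩ := h.blk hQ t2 tN tt ha ta hp.1 hq.1 hD' (Or.inl hp.2) (Or.inr hq.2) rfl
      obtain ⟨n1, n2, n3, n4⟩ := mem_bl G a (t • a) p q
      rw [h.bl_eq hD'.ncard hD n1 n2 hx' (b3 x hx')]
      exact ⟨⟨n3, hp.2⟩, ⟨n4, hq.2⟩, pq⟩
    · rintro ⟨hp, hq, pq⟩
      refine ⟨⟨⟨b1 hp.1, hp.2⟩, ⟨b1 hq.1, hq.2⟩, pq⟩, ?_⟩
      rw [h.bl_eq hD.ncard (D4_fix tt ha ta hp.2 hq.2 pq) m1 m2 hp.1 hq.1]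
      exact m3

end Step

theorem exists_step {P : Subgroup G} (hP : IsPGroup 2 P) (h : Fix Ω P ≠ Set.univ) :
    ∃ Q : Subgroup G, IsPGroup 2 Q ∧ ∃ t : G, IsTwo t ∧ t ∈ Subgroup.normalizer (Q : Set G) ∧
      t ^ 2 ∈ Q ∧ {x | x ∈ Fix Ω Q ∧ t • x = x} = Fix Ω P ∧ ∃ a ∈ Fix Ω Q, t • a ≠ a := by
  obtain ⟨Q, ⟨h1, h2⟩, hm⟩ := (Set.toFinite {Q : Subgroup G | Q ≤ P ∧ Fix Ω Q ≠ Fix Ω P}).exists_maximal
    ⟨⊥, bot_le, fun e => h (e ▸ Set.eq_univ_of_forall fun x g hg => by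
      rw [Subgroup.mem_bot.1 hg, one_smul])⟩
  obtain ⟨t, hp, hq, tt, tN, -⟩ := GT.PG.exists_step (H := ⊥) hP (IsPGroup.of_bot) bot_le bot_le
    (lt_of_le_of_ne h1 fun e => h2 (e ▸ rfl))
  have e : {x | x ∈ Fix Ω Q ∧ t • x = x} = Fix Ω P := by
    have e1 : Fix Ω (Q ⊔ Subgroup.zpowers t) = Fix Ω P := by
      by_contra hc
      exact hq (hm ⟨sup_le h1 (Subgroup.zpowers_le_of_mem hp), hc⟩ le_sup_left
        (Subgroup.mem_sup_right (Subgroup.mem_zpowers t)))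
    rw [← e1]
    ext x
    refine ⟨fun hx => ?_, fun hx => ⟨Fix_anti le_sup_left hx,
      hx t (Subgroup.mem_sup_right (Subgroup.mem_zpowers t))⟩⟩
    exact fun g hg => (sup_le (fun u hu => hx.1 u hu) (Subgroup.zpowers_le_of_mem hx.2) :
      Q ⊔ Subgroup.zpowers t ≤ stabilizer G x) hg
  refine ⟨Q, hP.to_le h1, t, isTwo_of_mem hP hp, tN, tt, e, ?_⟩
  by_contra hc
  push Not at hc
  exact h2 (e ▸ Set.ext fun x => ⟨fun hx => ⟨hx, hc x hx⟩, fun hx => hx.1⟩)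

/-- either the blocks have four points, or they form an `S(4, 7, 23)` -/
theorem TC.four_or_seven [FaithfulSMul G Ω] (h : TC G Ω) :
    (∀ s : Set Ω, s.ncard = 4 → Fix Ω (P2 G s) = s) ∨
      (Nat.card Ω = 23 ∧ ∀ s : Set Ω, s.ncard = 4 → (Fix Ω (P2 G s)).ncard = 7) := by
  classical
  obtain ⟨s, -, hs⟩ := Set.exists_subset_card_eq (s := (Set.univ : Set Ω)) (n := 4)
    (by rw [Set.ncard_univ]; exact h.card)
  obtain ⟨k, e⟩ : ∃ k, (Fix Ω (P2 G s)).ncard = k := ⟨_, rfl⟩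
  have hk : ∀ t : Set Ω, t.ncard = 4 → (Fix Ω (P2 G t)).ncard = k := fun t ht =>
    e ▸ le_antisymm (bl_card_le h.four ht hs) (bl_card_le h.four hs ht)
  have := Fintype.ofFinite (Fix Ω (P2 G s))
  have hA := h.hall_P2 hs
  rw [e] at hA
  by_cases k4 : k = 4
  · exact Or.inl fun t ht => (Set.eq_of_subset_of_ncard_le (subset_Fix_P2 t)
      (by rw [hk t ht, ht, k4]) (Set.toFinite _)).symm
  obtain ⟨Q, hQ, t, t2, tN, tt, e1, a, ha, ta⟩ := exists_step (Ω := Ω) (h.isP2 hs.ge) fun e => by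
    obtain ⟨u, hu, -, -, -, -, -, u1, -⟩ := h.exists_four hs
    exact u1 (eq_of_smul_eq_smul (α := Ω) fun x => by
      rw [one_smul]; exact (e ▸ Set.mem_univ x : x ∈ Fix Ω (P2 G s)) u hu)
  have c1 := fun hk => h.six_dvd hQ t2 tN tt ha ta hk
  have c2 := h.count hQ t2 tN tt ha ta hk
  rw [e1, ncard_offDiag, e] at c1 c2
  have k7 : k = 7 := by
    rcases hA with ⟨rfl | rfl, -⟩ | ⟨rfl | rfl, -⟩ | ⟨rfl, -⟩
    · omega
    · exact absurd (c1 fun s hs => by rw [hk s hs]) (by decide)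
    · obtain ⟨y, h1, h2⟩ := c2 (Or.inl rfl)
      have := h.sub_dvd hk hQ (by omega)
      omega
    · rfl
    · exact absurd (c1 fun s hs => by rw [hk s hs]) (by decide)
  subst k7
  refine Or.inr ⟨?_, hk⟩
  obtain ⟨y, h1, h2⟩ := c2 (Or.inr rfl)
  have h3 : (Fix Ω Q).ncard = 23 := by omega
  by_contra hn
  obtain ⟨R, hR, u, u2, uN, uu, e2, b, hb, ub⟩ := exists_step (Ω := Ω) hQ fun e => by
    rw [e, Set.ncard_univ] at h3; exact hn h3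
  have := h.six_dvd hR u2 uN uu hb ub fun s hs => by rw [hk s hs]
  rw [e2, ncard_offDiag, h3] at this
  exact absurd this (by decide)

end Cfsg.Agent.Q4
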