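import Mathlib
import Cfsg.Agent.Q4.Count
import Cfsg.Agent.Inv.BrauerFowler
import Cfsg.Agent.S0413

/-! # Identification of `M₂₃` -/

set_option autoImplicit false

namespace Cfsg.Agent.Q4

open MulAction Pointwise

variable {G Ω : Type*} [Group G] [Finite G] [MulAction G Ω] [Finite Ω]

omit [Finite Ω] in
theorem Frob.six_le {H K C : Subgroup G} (hF : Frob H K C) : 6 ≤ Nat.card H := by
  have k1 := (Subgroup.one_lt_card_iff_ne_bot K).2 hF.Kne
  have k2 := (Subgroup.one_lt_card_iff_ne_bot C).2 hF.Cne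
  have := hF.cop
  rw [hF.card]
  by_cases h1 : Nat.card K = 2
  · by_cases h2 : Nat.card C = 2
    · rw [h1, h2] at this; exact absurd this (by decide)
    · nlinarith [show 3 ≤ Nat.card C by omega]
  · nlinarith [show 3 ≤ Nat.card K by omega]

theorem TC.isM23 [FaithfulSMul G Ω] (h : TC G Ω) (hn : Nat.card Ω = 23)
    (h7 : ∀ s : Set Ω, s.ncard = 4 → (Fix Ω (P2 G s)).ncard = 7) : IsM23 G := by
  classical
  have := Fintype.ofFinite Ω
  rw [Nat.card_eq_fintype_card] at hn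
  let B : Set (Finset Ω) := {b | ∃ s : Set Ω, s.ncard = 4 ∧ (b : Set Ω) = Fix Ω (P2 G s)}
  have hB : IsSteinerSystem 4 7 B := by
    refine ⟨fun b ⟨s, hs, e⟩ => by rw [← Set.ncard_coe_finset, e, h7 s hs], fun s hs => ?_⟩
    rw [← Set.ncard_coe_finset] at hs
    refine ⟨(Fix Ω (P2 G (s : Set Ω))).toFinset, ⟨⟨s, hs, by simp⟩, fun x hx =>
      Set.mem_toFinset.2 (subset_Fix_P2 _ hx)⟩, fun b ⟨⟨t, ht, e⟩, hb⟩ => ?_⟩
    rw [← Finset.coe_inj, e, Set.coe_toFinset, h.P2_eq ht hs.ge (e ▸ Finset.coe_subset.2 hb)]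
  obtain ⟨⟨hs, hc⟩, -⟩ := S0413.result hn hB
  have k : ∀ g : G, ∀ b ∈ B, toPermHom G Ω g • b ∈ B := fun g b ⟨s, hs, e⟩ => by
    refine ⟨g • s, by rw [Set.ncard_smul_set, hs], ?_⟩
    ext x
    rw [Finset.mem_coe, Finset.mem_smul_finset]
    constructor
    · rintro ⟨y, hy, rfl⟩
      exact smul_mem_bl (fun y hy => Set.smul_mem_smul_set hy) (e ▸ Finset.mem_coe.2 hy)
    · intro hx
      refine ⟨g⁻¹ • x, Finset.mem_coe.1 (e ▸ smul_mem_bl (fun y hy => ?_) hx), smul_inv_smul g x⟩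
      exact Set.mem_smul_set_iff_inv_smul_mem.1 hy
  have le : (toPermHom G Ω).range ≤ setSystemAut B := by
    rintro _ ⟨g, rfl⟩
    refine Set.Subset.antisymm (by rintro _ ⟨b, hb, rfl⟩; exact k g b hb) fun b hb => ?_
    exact ⟨_, k g⁻¹ b hb, by rw [map_inv]; exact smul_inv_smul _ b⟩
  have e1 := MonoidHom.ofInjective (f := toPermHom G Ω) toPerm_injective
  have e2 := e1.trans (Subgroup.subgroupOfEquivOfLe le).symm
  obtain ⟨s, -, h4⟩ := Set.exists_subset_card_eq (s := (Set.univ : Set Ω)) (n := 4)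
    (by rw [Set.ncard_univ]; exact h.card)
  obtain ⟨K, C, hF, -⟩ := h.frob s h4
  obtain ⟨a, b, c, d, hD, rfl⟩ := exists_D4_of_ncard_eq h4
  have e := Perm.Hall4.card_eq_S4 h.four (a := a) (b := b) (c := c) (d := d)
    (by simp [hD.ab, hD.ac, hD.ad, hD.bc, hD.bd, hD.cd])
  rw [show Perm.Hall4.S4 G a b c d = fixingSubgroup G ({a, b, c, d} : Set Ω) by
    ext g; rw [mem_fx4, Perm.Hall4.mem_S4], hn, show Nat.choose 23 4 * 24 = 212520 by decide] at e
  have h6 := hF.six_le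
  have hi := ((toPermHom G Ω).range.subgroupOf (setSystemAut B)).index_mul_card
  rw [← Nat.card_congr e2.toEquiv, hc, e] at hi
  have ht : (toPermHom G Ω).range.subgroupOf (setSystemAut B) = ⊤ := by
    by_contra hne
    have := (Inv.card_dvd_factorial_index hne).trans (Nat.factorial_dvd_factorial (n := 8)
      (by nlinarith))
    rw [hc] at this
    exact absurd this (by decide)
  have e3 := e2.trans ((MulEquiv.subgroupCongr ht).trans Subgroup.topEquiv)
  exact ⟨e3.isSimpleGroup, (Nat.card_congr e3.toEquiv).trans hc⟩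

end Cfsg.Agent.Q4
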