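import Mathlib
import Cfsg.Agent.Q4.Hall
import Cfsg.Agent.Perm.Jordan
import Cfsg.Agent.Sym.PrimeCycle

/-! # Four-transitive groups of small degree -/

set_option autoImplicit false
set_option linter.unusedSectionVars false

namespace Cfsg.Agent.Q4

open MulAction

variable {G Ω : Type*} [Group G] [Finite G] [MulAction G Ω] [Fintype Ω] [DecidableEq Ω]

/-- `G` induces all even permutations -/
def Alt (G Ω : Type*) [Group G] [MulAction G Ω] [Fintype Ω] [DecidableEq Ω] : Prop :=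
  alternatingGroup Ω ≤ (toPermHom G Ω).range

theorem four_range (h4 : IsMultiplyPretransitive G Ω 4) :
    IsMultiplyPretransitive (toPermHom G Ω).range Ω 4 :=
  four_of_tr4 fun _ _ _ _ _ _ _ _ h1 h2 => by
    obtain ⟨g, hg⟩ := tr4 h4 h1 h2
    exact ⟨⟨toPermHom G Ω g, g, rfl⟩, hg⟩

theorem Alt.not_noV [FaithfulSMul G Ω] (h : Alt G Ω) (hn : 8 ≤ Nat.card Ω) : ¬ NoV G Ω := by
  intro hV
  obtain ⟨ι⟩ : Nonempty (Fin 8 ↪ Ω) := Function.Embedding.nonempty_of_card_le (by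
    rwa [Fintype.card_fin, ← Nat.card_eq_fintype_card])
  have key : ∀ σ : Equiv.Perm (Fin 8), Equiv.Perm.sign σ = 1 →
      ∃ g : G, toPermHom G Ω g = Equiv.Perm.viaEmbeddingHom ι σ := fun σ hσ =>
    h (Equiv.Perm.mem_alternatingGroup.2 (by
      rw [Equiv.Perm.viaEmbeddingHom_apply, Equiv.Perm.viaEmbedding,
        Equiv.Perm.sign_extendDomain, hσ]))
  obtain ⟨u, hu⟩ := key (Equiv.swap 4 5 * Equiv.swap 6 7) (by decide)
  obtain ⟨v, hv⟩ := key (Equiv.swap 4 6 * Equiv.swap 5 7) (by decide)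
  have inj : Function.Injective (toPermHom G Ω) := toPerm_injective
  have inj' := Equiv.Perm.viaEmbeddingHom_injective ι
  have ap : ∀ {g : G} {σ : Equiv.Perm (Fin 8)}, toPermHom G Ω g = Equiv.Perm.viaEmbeddingHom ι σ →
      ∀ i, σ i = i → g • ι i = ι i := fun {g σ} e i hi => by
    have := Equiv.ext_iff.1 e (ι i)
    rwa [Equiv.Perm.viaEmbeddingHom_apply, Equiv.Perm.viaEmbedding_apply, hi] at this
  rcases hV (ι 0) (ι 1) (ι 2) (ι 3) ⟨by simp, by simp, by simp, by simp, by simp, by simp⟩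
    u (mem_fx4.2 ⟨ap hu 0 (by decide), ap hu 1 (by decide), ap hu 2 (by decide),
      ap hu 3 (by decide)⟩)
    v (mem_fx4.2 ⟨ap hv 0 (by decide), ap hv 1 (by decide), ap hv 2 (by decide),
      ap hv 3 (by decide)⟩)
    (inj (by rw [map_pow, hu, ← map_pow, map_one, ← map_one (Equiv.Perm.viaEmbeddingHom ι)]
             exact congrArg _ (by decide)))
    (inj (by rw [map_pow, hv, ← map_pow, map_one, ← map_one (Equiv.Perm.viaEmbeddingHom ι)]
             exact congrArg _ (by decide)))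
    (inj (by rw [map_mul, map_mul, hu, hv, ← map_mul, ← map_mul]
             exact congrArg _ (by decide))) with e | e | e
  · rw [e, map_one, ← map_one (Equiv.Perm.viaEmbeddingHom ι)] at hu
    exact absurd (inj' hu) (by decide)
  · rw [e, map_one, ← map_one (Equiv.Perm.viaEmbeddingHom ι)] at hv
    exact absurd (inj' hv) (by decide)
  · rw [e, hv] at hu
    exact absurd (inj' hu) (by decide)

/-- Jordan's theorem -/
theorem alt_of_prime (h4 : IsMultiplyPretransitive G Ω 4) (hn : 4 ≤ Nat.card Ω) {y : G} {p : ℕ}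
    (hp : p.Prime) (hy : y ^ p = 1) (h1 : ∃ x : Ω, y • x ≠ x)
    (h2 : {x : Ω | y • x ≠ x}.ncard < 2 * p) (h3 : p ≤ {x : Ω | y • x ≠ x}.ncard →
      p + 3 ≤ Nat.card Ω) : Alt G Ω := by
  have := four_range h4
  have h2' : IsMultiplyPretransitive (toPermHom G Ω).range Ω 2 :=
    isMultiplyPretransitive_of_le (n := 4) (by omega) hn
  have := Fact.mk hp
  have ho : orderOf (toPermHom G Ω y) = p := orderOf_eq_prime (by rw [← map_pow, hy, map_one])
    fun e => by obtain ⟨x, hx⟩ := h1; exact hx (Equiv.ext_iff.1 e x)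
  have hs : (toPermHom G Ω y).support.card = {x : Ω | y • x ≠ x}.ncard := by
    rw [← Set.ncard_coe_finset]; congr 1; ext x; simp
  have hc := Equiv.Perm.isCycle_of_prime_order (σ := toPermHom G Ω y) (ho ▸ hp) (by rwa [ho, hs])
  have e := hc.orderOf
  rw [ho] at e
  exact Perm.alt_le_of_prime_cycle (isPreprimitive_of_is_two_pretransitive h2') hp
    (by rw [← Nat.card_eq_fintype_card]; exact h3 (by omega)) hc e.symm ⟨y, rfl⟩

theorem alt_hall (h4 : IsMultiplyPretransitive G Ω 4) (hn : Nat.card Ω = 10 ∨ Nat.card Ω = 13) :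
    Alt G Ω := by
  rw [Nat.card_eq_fintype_card] at hn
  rcases hn with hn | hn
  · exact Perm.alt_le_of_degree_kp_add_r _ (k := 1) (p := 7) (r := 3) (by norm_num) hn (by omega)
      (by omega) (by omega) (by omega) (four_range h4)
  · exact Perm.alt_le_of_degree_kp_add_r _ (k := 2) (p := 5) (r := 3) (by norm_num) hn (by omega)
      (by omega) (by omega) (by omega) (four_range h4)

theorem ncard_moved_add (g : G) :
    {x : Ω | g • x ≠ x}.ncard + {x : Ω | g • x = x}.ncard = Nat.card Ω := by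
  rw [← Set.ncard_add_ncard_compl {x : Ω | g • x = x}, add_comm]; rfl

/-- a `p`-element acting nontrivially has a power of order `p` acting nontrivially -/
theorem exists_pow_prime [FaithfulSMul G Ω] {g : G} {p k : ℕ} (hg : g ^ p ^ k = 1) (h1 : g ≠ 1) :
    ∃ j : ℕ, (g ^ j) ^ p = 1 ∧ ∃ x : Ω, g ^ j • x ≠ x := by
  induction k with
  | zero => exact absurd (by simpa using hg) h1
  | succ k ih =>
    by_cases h : g ^ p ^ k = 1
    · exact ih h
    · refine ⟨p ^ k, by rw [← pow_mul, ← pow_succ, hg], ?_⟩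
      by_contra hc
      push Not at hc
      exact h (eq_of_smul_eq_smul (α := Ω) fun x => by rw [hc, one_smul])

theorem alt_small [FaithfulSMul G Ω] (h4 : IsMultiplyPretransitive G Ω 4)
    (hn : Nat.card Ω = 11 ∨ Nat.card Ω = 12) {s : Set Ω} (hs : s.ncard = 4) {y : G}
    (hy : y ∈ fixingSubgroup G s) {p : ℕ} (hp : p.Prime) (hp2 : p ≠ 2) (hyp : y ^ p = 1)
    (y1 : y ≠ 1) : Alt G Ω := by
  have hn4 : 4 ≤ Nat.card Ω := by omega
  have m1 : ∃ x : Ω, y • x ≠ x := by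
    by_contra hc
    push Not at hc
    exact y1 (eq_of_smul_eq_smul (α := Ω) fun x => by rw [hc, one_smul])
  have m2 := ncard_moved_add (Ω := Ω) y
  have m3 : 4 ≤ {x : Ω | y • x = x}.ncard :=
    hs ▸ Set.ncard_le_ncard (fun x hx => mem_fx.1 hy x hx) (Set.toFinite _)
  by_cases h6 : {x : Ω | y • x ≠ x}.ncard < 2 * p
  · exact alt_of_prime h4 hn4 hp hyp m1 h6 (by omega)
  have p3 : p = 3 := by
    have := hp.two_le
    have : p ≠ 4 := by rintro rfl; exact absurd hp (by decide)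
    omega
  subst p3
  have := Fact.mk hp
  obtain ⟨R, hyR, hRs, hR, hi⟩ := GT.Tr.exists_sylowIn_ge (p := 3) (T := Subgroup.zpowers y)
    (H := fixingSubgroup G s) (Perm.isPGroup_zpowers_of_pow (k := 1) (by simpa using hyp))
    (Subgroup.zpowers_le_of_mem hy)
  have tr : Tr4 (Subgroup.normalizer (R : Set G)) (Fix Ω R) :=
    witt_conj h4 hs (le_fx_iff.1 hRs) fun g hg => by
      obtain ⟨k, hk, e⟩ := GT.Tr.exists_conj_le_sylowIn hR hi (GT.Tr.isPGroup_map_conj hR g)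
        (GT.Tr.map_conj_le_iff.2 hg)
      exact ⟨k, hk, fun u hu => e _ (GT.Tr.conj_mem_map_conj.2 hu)⟩
  have hinv : ∀ n ∈ Subgroup.normalizer (R : Set G), ∀ x ∈ Fix Ω R, n • x ∈ Fix Ω R :=
    fun _ hn _ hx => smul_mem_Fix_of_normalizer hn hx
  have c1 : 4 ≤ (Fix Ω R).ncard := hs ▸ Set.ncard_le_ncard (le_fx_iff.1 hRs) (Set.toFinite _)
  have c2 : (Fix Ω R).ncard ≤ {x : Ω | y • x = x}.ncard :=
    Set.ncard_le_ncard (fun x hx => hx y (hyR (Subgroup.mem_zpowers y))) (Set.toFinite _)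
  have c3 := Perm.ncard_modEq_fixed hR (Set.univ : Set Ω) (Set.toFinite _) fun _ _ _ _ => trivial
  rw [Set.ncard_univ, show {x ∈ (Set.univ : Set Ω) | ∀ g ∈ R, g • x = x} = Fix Ω R by
    ext x; simp [mem_Fix], Nat.ModEq] at c3
  have c4 := Set.ncard_add_ncard_compl (Fix Ω R)
  have c5 : 5 ∣ Nat.card (resG (Subgroup.normalizer (R : Set G)) (Fix Ω R)) := by
    refine Dvd.dvd.trans ?_ (Sym.descFactorial_dvd_card (tr.four hinv) c1)
    rw [Nat.card_coe_set_eq]
    rcases (by omega : (Fix Ω R).ncard = 5 ∨ (Fix Ω R).ncard = 6) with e | e <;> rw [e] <;> decide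
  have : Fact (Nat.Prime 5) := ⟨by norm_num⟩
  obtain ⟨σ, hσ⟩ := exists_prime_orderOf_dvd_card' 5 c5
  obtain ⟨g, hg, ⟨k, hk⟩, m, hm, e⟩ := exists_lift σ.2 (p := 5) (by norm_num)
  have g1 : g ≠ 1 := fun e1 => hm (by
    rw [← hσ, ← Subgroup.orderOf_coe, orderOf_dvd_iff_pow_eq_one]
    exact Equiv.ext fun x => Subtype.ext (by rw [e, e1, one_smul]; rfl))
  have ginv : ∀ x ∈ (Fix Ω R)ᶜ, g • x ∈ (Fix Ω R)ᶜ := fun x hx h =>
    hx (by simpa using hinv _ (inv_mem hg) _ h)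
  have d1 := Perm.ncard_modEq_fixed_of_pow (p := 5) (by norm_num) hk _ (Set.toFinite _) ginv
  obtain ⟨w, hw, hgw⟩ := Perm.exists_fixed_of_pow (p := 5) (by norm_num) hk _ (Set.toFinite _) ginv
    (by omega)
  have o1 : orbit R w ⊆ (Fix Ω R)ᶜ := by
    rintro _ ⟨r, rfl⟩ h
    have h' : (r : G)⁻¹ • (r : G) • w ∈ Fix Ω R :=
      hinv _ (Subgroup.le_normalizer (inv_mem r.2)) _ h
    exact hw (by simpa using h')
  have o2 : (orbit R w).ncard = 3 := by
    obtain ⟨i, hi⟩ := hR.card_orbit w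
    rw [Nat.card_coe_set_eq] at hi
    have h1 := Set.ncard_le_ncard o1 (Set.toFinite _)
    have h2 : (orbit R w).ncard ≠ 1 := fun h => by
      obtain ⟨c, hc⟩ := Set.ncard_eq_one.1 h
      refine hw fun r hr => ?_
      have e1 : w ∈ orbit R w := mem_orbit_self _
      have e2 : r • w ∈ orbit R w := ⟨⟨r, hr⟩, rfl⟩
      rw [hc] at e1 e2
      rw [e2, e1]
    rw [hi] at h1 h2 ⊢
    rcases i with _ | _ | i
    · simp at h2
    · rfl
    · have : 3 ^ 2 ≤ 3 ^ (i + 1 + 1) := Nat.pow_le_pow_right (by norm_num) (by omega)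
      omega
  have d2 := Perm.ncard_modEq_fixed_of_pow (p := 5) (by norm_num) hk (orbit R w) (Set.toFinite _)
    (by
      rintro _ ⟨r, rfl⟩
      refine ⟨⟨_, (Subgroup.mem_normalizer_iff.1 hg r).1 r.2⟩, ?_⟩
      change (g * r * g⁻¹) • w = g • (r : G) • w
      rw [mul_smul, mul_smul, inv_smul_eq_iff.2 hgw.symm])
  have d3 : {x ∈ orbit R w | g • x = x}.ncard ≤ {x ∈ (Fix Ω R)ᶜ | g • x = x}.ncard :=
    Set.ncard_le_ncard (fun x hx => ⟨o1 hx.1, hx.2⟩) (Set.toFinite _)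
  have d4 : {x ∈ (Fix Ω R)ᶜ | g • x = x} ⊆ (Fix Ω R)ᶜ := fun x hx => hx.1
  have d5 := Set.ncard_le_ncard d4 (Set.toFinite _)
  rw [Nat.ModEq] at d1 d2
  have d6 := Set.eq_of_subset_of_ncard_le d4 (by omega) (Set.toFinite _)
  obtain ⟨j, hj, m4⟩ := exists_pow_prime (Ω := Ω) hk g1
  have d7 : {x : Ω | g ^ j • x ≠ x}.ncard ≤ (Fix Ω R).ncard :=
    Set.ncard_le_ncard (fun x hx => by
      by_contra hc
      have : x ∈ {x ∈ (Fix Ω R)ᶜ | g • x = x} := by rw [d6]; exact hc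
      exact hx (pow_mem (mem_stabilizer_iff.2 this.2) j)) (Set.toFinite _)
  exact alt_of_prime h4 hn4 (by norm_num) hj m4 (by omega) (by omega)

end Cfsg.Agent.Q4
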